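import Groth.Agent.Sga67.KosAlt
import Mathlib.AlgebraicGeometry.Morphisms.ClosedImmersion
import Mathlib.AlgebraicGeometry.IdealSheaf.Functorial

/-!
# Koszul charts of a closed immersion

For a closed immersion `i : X ⟶ Y`, `KChart i r` is an affine open `U` of `Y` with `r` generators `f` of the ideal of
`X` over `U` whose Koszul complex (in the form of contractions of alternating maps) is exact in positive degrees.
-/

set_option autoImplicit false

universe u

open CategoryTheory AlgebraicGeometry
open Groth.Agent.Sga67.KosAlt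

namespace Groth.Agent.Dual.H377.KChart

/-- Koszul charts of a closed immersion. -/
structure KChart {X Y : Scheme.{u}} (i : X ⟶ Y) (r : ℕ) where
  /-- the open -/
  U : Y.Opens
  hU : IsAffineOpen U
  /-- the generators of the ideal -/
  f : Fin r → Γ(Y, U)
  hker : i.ker.ideal ⟨U, hU⟩ = Ideal.span (Set.range f)
  hex : ∀ (k : ℕ) (z : Alt Γ(Y, U) r (k + 1) Γ(Y, U)), z.curryLeft f = 0 →
    ∃ w : Alt Γ(Y, U) r (k + 2) Γ(Y, U), w.curryLeft f = z

end Groth.Agent.Dual.H377.KChart
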