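import Groth.Agent.PerfA.AffVan
import Groth.Agent.PerfA.QCohSerre
import Groth.Agent.PerfB.TildeExact
import Groth.Agent.PerfC.ExtZero2
import Groth.Agent.CohqA.AffSec
import Mathlib.CategoryTheory.Abelian.Injective.Ext
import Mathlib.Algebra.Category.ModuleCat.Injective

/-!
# Sections over an affine open of injective modules and of injective resolutions

* `injective_sections`: for `I` an injective `O_X`-module and `U` affine open, `Γ(I, U)` is an injective `Γ(X, U)`-module;
* `exists_d_eq`, `exists_ι_eq`, `ι_injective`: an injective resolution of a quasi-coherent module is exact on sections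
  over `U`.
-/

set_option autoImplicit false
universe u

open CategoryTheory CategoryTheory.Limits AlgebraicGeometry Opposite TopologicalSpace

namespace Groth.Agent.Dual.H377.SecInj

open Groth.Agent.PerfA.ExtZero

variable {X : Scheme.{u}}

/-- Sections of an injective module over an affine open form an injective module. -/
theorem injective_sections (I : X.Modules) [Injective I] {U : X.Opens} (hU : IsAffineOpen U) :
    Module.Injective Γ(X, U) Γ(I, U) := by
  have h1 : Injective (I.restrict hU.fromSpec) :=
    Injective.injective_of_adjoint (Groth.Agent.PerfC.ExtZero.adj hU.fromSpec) I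
  have h2 : Injective ((moduleSpecΓFunctor (R := Γ(X, U))).obj (I.restrict hU.fromSpec)) :=
    Injective.injective_of_adjoint (tilde.adjunction (R := Γ(X, U))) _
  have h3 : Module.Injective Γ(X, U) ((moduleSpecΓFunctor (R := Γ(X, U))).obj (I.restrict hU.fromSpec)) :=
    @Module.injective_module_of_injective_object Γ(X, U) _ _ _ _
      (inferInstanceAs (Injective ((moduleSpecΓFunctor (R := Γ(X, U))).obj (I.restrict hU.fromSpec))))
  have h4 : Module.Baer Γ(X, U) ((moduleSpecΓFunctor (R := Γ(X, U))).obj (I.restrict hU.fromSpec)) :=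
    Module.Baer.of_injective h3
  exact (h4.of_equiv (Groth.Agent.CohqA.AffSec.secEquiv I hU)).injective

section Res

variable {M : X.Modules} (R : InjectiveResolution M)

/-- The augmentation. -/
noncomputable def aug : M ⟶ R.cocomplex.X 0 := R.ι.f 0

instance : Mono (aug R) := inferInstanceAs (Mono (R.ι.f 0))

theorem aug_d : aug R ≫ R.cocomplex.d 0 1 = 0 := R.ι_f_zero_comp_complex_d

theorem exact_aug : (ShortComplex.mk (aug R) (R.cocomplex.d 0 1) (aug_d R)).Exact := R.exact₀

theorem app_comp {M N P : X.Modules} (f : M ⟶ N) (g : N ⟶ P) (U : X.Opens) (x : Γ(M, U)) :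
    (f ≫ g).app U x = g.app U (f.app U x) := rfl

theorem app_zero {M N : X.Modules} (U : X.Opens) (x : Γ(M, U)) : (0 : M ⟶ N).app U x = 0 := rfl

theorem desc_comp_eq_zero {M N : X.Modules} (g : M ⟶ N) {U : X.Opens} (x : Γ(M, U)) (hx : g.app U x = 0) :
    desc x ≫ g = 0 := by
  rw [desc_comp, hx, desc_zero]

theorem aug_injective (U : X.Opens) (x : Γ(M, U)) (hx : (aug R).app U x = 0) : x = 0 := by
  have h1 : desc x ≫ aug R = 0 := desc_comp_eq_zero _ _ hx
  have h2 : desc x = 0 := by
    rw [← cancel_mono (aug R), h1, zero_comp]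
  apply desc_injective
  rw [h2, desc_zero]

theorem exists_aug_eq (U : X.Opens) (x : Γ(R.cocomplex.X 0, U)) (hx : (R.cocomplex.d 0 1).app U x = 0) :
    ∃ y : Γ(M, U), (aug R).app U y = x := by
  have h1 : desc x ≫ R.cocomplex.d 0 1 = 0 := desc_comp_eq_zero _ _ hx
  have hm : Mono (ShortComplex.mk (aug R) (R.cocomplex.d 0 1) (aug_d R)).f := inferInstanceAs (Mono (aug R))
  let l : OU U ⟶ M := (exact_aug R).lift (desc x) h1
  have h2 : l ≫ aug R = desc x := (exact_aug R).lift_f (desc x) h1
  obtain ⟨y, hy⟩ := desc_surjective l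
  refine ⟨y, ?_⟩
  apply desc_injective
  rw [← desc_comp, ← hy, h2]

/-- Exactness of an injective resolution of a quasi-coherent module on sections over an affine open. -/
theorem exists_d_eq (hM : Coh.IsQCoh M) {U : X.Opens} (hU : IsAffineOpen U) (q : ℕ)
    (x : Γ(R.cocomplex.X (q + 1), U)) (hx : (R.cocomplex.d (q + 1) (q + 2)).app U x = 0) :
    ∃ y : Γ(R.cocomplex.X q, U), (R.cocomplex.d q (q + 1)).app U y = x := by
  have := HasExt.standard X.Modules
  have h1 : desc x ≫ R.cocomplex.d (q + 1) (q + 2) = 0 := desc_comp_eq_zero _ _ hx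
  have h2 : R.extMk (desc x) (q + 2) rfl h1 = 0 := Groth.Agent.PerfA.AffVan.ext_eq_zero M hM U hU q _
  obtain ⟨g, hg⟩ := (R.extMk_eq_zero_iff (desc x) (q + 2) rfl h1 q rfl).mp h2
  obtain ⟨y, hy⟩ := desc_surjective g
  refine ⟨y, ?_⟩
  apply desc_injective
  rw [← desc_comp, ← hy, hg]

end Res

end Groth.Agent.Dual.H377.SecInj
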