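import Groth.Agent.Dual.H377.EvAlg
import Groth.Agent.Dual.H377.SecInj
import Groth.Agent.Dual.H377.KChart
import Groth.Agent.Sga67.Sec

/-!
# The local generator of `H^r` of the torsion sections of an injective resolution of `O_Y` on a Koszul chart

For `R` an injective resolution of `O_Y`, `I = R.cochainComplex` and a Koszul chart `c`: the complex of `c.f`-torsion
sections of `I` over `c.U` is exact except in degree `r`, where its cohomology is `Γ(Y, U) / (c.f)`, with generator the class
of any `z` with `IsCls c z`.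
-/

set_option autoImplicit false
set_option linter.unusedVariables false

universe u

open CategoryTheory CategoryTheory.Limits AlgebraicGeometry Opposite TopologicalSpace
open Groth.Agent.Sga67.KosAlt Groth.Agent.Sga67.Sec Groth.Agent.Dual.H377.KChart Groth.Agent.Dual.H377.EvAlg
open Groth.Agent.Dual.H377.SecInj Groth.Agent.Dual.H377.InjExact Groth.Agent.Dual.H377.ZigE

namespace Groth.Agent.Dual.H377.ChartCls

section Alg

variable {A : Type u} [CommRing A] {n : ℕ} {J : ℕ → Type u} [∀ q, AddCommGroup (J q)] [∀ q, Module A (J q)]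
  {d : ∀ q, J q →ₗ[A] J (q + 1)} {f : Fin n → A}

theorem zg_boundary {Q : ℕ} (T : Alt A n n (J Q)) (hT : Cy f T) :
    ∀ m k q : ℕ, k + m = n → q + m = Q → 0 < m →
      Zg d f ((d Q).compAlternatingMap T) m k q (0 : Alt A n k (J q)) := by
  intro m
  induction m with
  | zero => intro k q _ _ h; exact absurd h (lt_irrefl 0)
  | succ m ih =>
    intro k q hk hq _
    rcases Nat.eq_zero_or_pos m with rfl | hm
    · have hq' : q + 1 = Q := hq
      have hk' : k + 1 = n := hk
      subst hq'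
      subst hk'
      refine Zg.step 0 T ?_ (Zg.base T rfl)
      rw [comp_zero']
      exact hT
    · refine Zg.step 0 0 ?_ (ih (k + 1) (q + 1) (by omega) (by omega) hm)
      rw [comp_zero', curry_zero]

/-- Boundaries of torsion elements have residue zero. -/
theorem ev_boundary_zero (hn : 0 < n) (t : J n) (ht : ∀ j, f j • t = 0) : Ev d f (d n t) 0 := by
  have h := zg_boundary (d := d) (f := f) (Q := n) (vol t : Alt A n n (J n)) (cy_vol f t ht) n 0 0 (zero_add n)
    (zero_add n) hn
  rw [comp_vol] at h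
  change Zg d f _ n 0 0 _
  rw [cst_zero]
  exact h

theorem ev_iff_of_zero {f : Fin 0 → A} {s : J 1} {a : J 0} : Ev d f s a ↔ d 0 a = s := by
  constructor
  · intro h
    cases h with
    | base a' h =>
      have h1 := congrArg (fun T : Alt A 0 0 (J 1) => T ![]) h
      have h2 : d 0 a = (vol s : Alt A 0 0 (J 1)) ![] := h1
      rw [h2, vol_apply, Matrix.det_isEmpty, one_smul]
  · intro h
    refine Zg.base _ ?_
    apply cst_ext
    change d 0 a = (vol s : Alt A 0 0 (J 1)) ![]
    rw [h, vol_apply, Matrix.det_isEmpty, one_smul]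

end Alg

section Cx

variable {Y : Scheme.{u}} {M : Y.Modules} (R : InjectiveResolution M)

/-- The augmented complex. -/
noncomputable def JM : ℕ → Y.Modules
  | 0 => M
  | q + 1 => R.cocomplex.X q

/-- Its differentials. -/
noncomputable def dM : ∀ q, JM R q ⟶ JM R (q + 1)
  | 0 => aug R
  | q + 1 => R.cocomplex.d q (q + 1)

theorem dM_dM (q : ℕ) : dM R q ≫ dM R (q + 1) = 0 := by
  cases q with
  | zero => exact aug_d R
  | succ q => exact R.cocomplex.d_comp_d _ _ _

/-- The complex of sections. -/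
noncomputable abbrev J (U : Y.Opens) (q : ℕ) : Type u := Sec (JM R q) U

/-- Its differentials. -/
noncomputable abbrev d (U : Y.Opens) (q : ℕ) : J R U q →ₗ[Γ(Y, U)] J R U (q + 1) := appS (dM R q) U

theorem hdd (U : Y.Opens) (q : ℕ) (x : J R U q) : d R U (q + 1) (d R U q x) = 0 := by
  rw [← appS_comp, dM_dM, appS_zero]

theorem hex0 (U : Y.Opens) (x : J R U 0) (hx : d R U 0 x = 0) : x = 0 := aug_injective R U x hx

theorem hex (hM : Coh.IsQCoh M) {U : Y.Opens} (hU : IsAffineOpen U) (q : ℕ) (x : J R U (q + 1))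
    (hx : d R U (q + 1) x = 0) : ∃ y, d R U q y = x := by
  cases q with
  | zero => exact exists_aug_eq R U x hx
  | succ q => exact exists_d_eq R hM hU q x hx

end Cx

section Chart

/-- Sections of an injective module over an affine open form an injective module. -/
theorem injective_sec {Y : Scheme.{u}} (M : Y.Modules) [Injective M] {U : Y.Opens} (hU : IsAffineOpen U) :
    Module.Injective Γ(Y, U) (Sec M U) := injective_sections M hU

theorem K1 {Y : Scheme.{u}} (M : Y.Modules) [Injective M] {U : Y.Opens} (hU : IsAffineOpen U) {n : ℕ}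
    (f : Fin n → Γ(Y, U)) (hex : ∀ (k : ℕ) (z : Alt Γ(Y, U) n (k + 1) Γ(Y, U)), z.curryLeft f = 0 →
      ∃ w : Alt Γ(Y, U) n (k + 2) Γ(Y, U), w.curryLeft f = z) {k : ℕ} (hk : k < n) (z : Alt Γ(Y, U) n k (Sec M U))
    (hz : Cy f z) : ∃ w : Alt Γ(Y, U) n (k + 1) (Sec M U), w.curryLeft f = z := by
  have := injective_sec M hU
  exact exists_curryLeft_of_injective f hex hk z hz

variable {X Y : Scheme.{u}} {i : X ⟶ Y} {r : ℕ} (R : InjectiveResolution (Coh.structureModule Y))

theorem hyp (c : KChart i r) : Hyp (d R c.U) c.f where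
  hdd := hdd R c.U
  hex0 := hex0 R c.U
  hex := hex R (Groth.Agent.PerfA.QCohSerre.isQCoh_unit Y) c.hU
  K0 := fun k z hz => c.hex k z hz
  K1 := fun q k hk z hz => K1 (R.cocomplex.X q) c.hU c.f c.hex hk z hz

/-- The comparison with the `ℤ`-indexed complex. -/
noncomputable def cmp (q : ℕ) (j : ℤ) (h : (q : ℤ) = j) (U : Y.Opens) :
    Sec (R.cochainComplex.X j) U ≃ₗ[Γ(Y, U)] J R U (q + 1) where
  toFun := appS (R.cochainComplexXIso j q h).hom U
  invFun := appS (R.cochainComplexXIso j q h).inv U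
  map_add' := map_add _
  map_smul' := map_smul _
  left_inv := appS_hom_inv _ U
  right_inv := appS_inv_hom _ U

theorem cmp_d (q : ℕ) (j j1 : ℤ) (h : (q : ℤ) = j) (h1 : ((q + 1 : ℕ) : ℤ) = j1) (U : Y.Opens)
    (x : Sec (R.cochainComplex.X j) U) :
    cmp R (q + 1) j1 h1 U (appS (R.cochainComplex.d j j1) U x) = d R U (q + 1) (cmp R q j h U x) := by
  rw [R.cochainComplex_d j j1 q (q + 1) h h1]
  exact appS_inv_hom (R.cochainComplexXIso j1 (q + 1) h1) U _

theorem cmp_res (q : ℕ) (j : ℤ) (h : (q : ℤ) = j) {U V : Y.Opens} (hV : V ≤ U)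
    (x : Sec (R.cochainComplex.X j) U) :
    cmp R q j h V (res _ hV x) = res _ hV (cmp R q j h U x) := appS_res _ hV x

theorem sec_neg (j : ℤ) (hj : j < 0) (U : Y.Opens) (x : Sec (R.cochainComplex.X j) U) : x = 0 := by
  have h : IsZero (R.cochainComplex.X j) := CochainComplex.isZero_of_isStrictlyGE _ 0 _ hj
  rw [← appS_id (R.cochainComplex.X j) U x, h.eq_of_src (𝟙 _) 0, appS_zero]

/-- The cohomology of the torsion sections vanishes outside degree `r`. -/
theorem van (c : KChart i r) (j : ℤ) (hj : j + 1 ≠ r) (x : Sec (R.cochainComplex.X (j + 1)) c.U)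
    (hx : ∀ k, c.f k • x = 0) (hd : appS (R.cochainComplex.d (j + 1) (j + 1 + 1)) c.U x = 0) :
    ∃ y : Sec (R.cochainComplex.X j) c.U, (∀ k, c.f k • y = 0) ∧ appS (R.cochainComplex.d j (j + 1)) c.U y = x := by
  rcases lt_trichotomy (j + 1) 0 with h | h | h
  · exact ⟨0, fun k => smul_zero _, by rw [map_zero, sec_neg R (j + 1) h c.U x]⟩
  · have h0 : ((0 : ℕ) : ℤ) = j + 1 := by rw [h]; rfl
    have h1 : ((0 + 1 : ℕ) : ℤ) = j + 1 + 1 := by rw [h]; rfl
    have hx0 : cmp R 0 (j + 1) h0 c.U x = 0 := by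
      apply (hyp R c).vanish_zero
      · rintro rfl
        exact hj h
      · intro k
        rw [← map_smul, hx, map_zero]
      · exact (cmp_d R 0 (j + 1) (j + 1 + 1) h0 h1 c.U x).symm.trans (by rw [hd, map_zero])
    refine ⟨0, fun k => smul_zero _, ?_⟩
    rw [map_zero]
    exact ((LinearEquiv.map_eq_zero_iff _).mp hx0).symm
  · obtain ⟨q, hq⟩ := Int.eq_ofNat_of_zero_le (Int.lt_add_one_iff.mp h)
    have h1 : ((q + 1 : ℕ) : ℤ) = j + 1 := by rw [hq]; rfl
    have h2 : ((q + 1 + 1 : ℕ) : ℤ) = j + 1 + 1 := by rw [hq]; rfl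
    obtain ⟨t, ht, ht'⟩ := (hyp R c).vanish_succ q (by
        intro h
        apply hj
        rw [← h1, h]) (cmp R (q + 1) (j + 1) h1 c.U x) (by
      intro k
      rw [← map_smul, hx, map_zero]) (by
      exact (cmp_d R (q + 1) (j + 1) (j + 1 + 1) h1 h2 c.U x).symm.trans (by rw [hd, map_zero]))
    refine ⟨(cmp R q j hq.symm c.U).symm t, fun k => ?_, ?_⟩
    · rw [← map_smul]
      have := ht k
      rw [this, map_zero]
    · apply (cmp R (q + 1) (j + 1) h1 c.U).injective
      rw [cmp_d R q j (j + 1) hq.symm h1, LinearEquiv.apply_symm_apply]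
      exact ht'

/-- A function as an element of `J 0`. -/
noncomputable def toJ (U : Y.Opens) (a : Γ(Y, U)) : J R U 0 := a

theorem smul_toJ (U : Y.Opens) (a : Γ(Y, U)) : a • toJ R U 1 = toJ R U a := mul_one a

theorem res_toJ {U V : Y.Opens} (h : V ≤ U) : res (JM R 0) h (toJ R U 1) = toJ R V 1 := map_one (resO Y h)

/-- The generators of the cohomology of the torsion sections in degree `r`. -/
def IsCls (c : KChart i r) (z : Sec (R.cochainComplex.X r) c.U) : Prop :=
  (∀ k, c.f k • z = 0) ∧ Ev (d R c.U) c.f (cmp R r r rfl c.U z) (toJ R c.U 1)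

theorem exists_isCls (c : KChart i r) : ∃ z, IsCls R c z := by
  obtain ⟨s, hs, hs', hs''⟩ := (hyp R c).exists_of (toJ R c.U 1)
  refine ⟨(cmp R r r rfl c.U).symm s, fun k => ?_, ?_⟩
  · rw [← map_smul]
    have := hs k
    rw [this, map_zero]
  · rw [LinearEquiv.apply_symm_apply]
    exact hs''

variable {R}

theorem IsCls.smul_eq_zero {c : KChart i r} {z : Sec (R.cochainComplex.X r) c.U} (h : IsCls R c z) (k : Fin r) :
    c.f k • z = 0 := h.1 k

theorem IsCls.d_eq_zero {c : KChart i r} {z : Sec (R.cochainComplex.X r) c.U} (h : IsCls R c z) :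
    appS (R.cochainComplex.d r (r + 1)) c.U z = 0 := by
  apply (cmp R (r + 1) (r + 1) rfl c.U).injective
  rw [cmp_d R r r (r + 1) rfl rfl, map_zero]
  exact h.2.d_eq_zero (hyp R c)

/-- An element of residue zero is a boundary. -/
theorem exists_boundary (c : KChart i r) (x : Sec (R.cochainComplex.X r) c.U)
    (h : Ev (d R c.U) c.f (cmp R r r rfl c.U x) 0) :
    ∃ y : Sec (R.cochainComplex.X ((r : ℤ) - 1)) c.U, (∀ k, c.f k • y = 0) ∧
      appS (R.cochainComplex.d ((r : ℤ) - 1) r) c.U y = x := by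
  cases r with
  | zero =>
    refine ⟨0, fun k => smul_zero _, ?_⟩
    rw [map_zero]
    have h1 := ev_iff_of_zero.mp h
    rw [map_zero] at h1
    exact ((LinearEquiv.map_eq_zero_iff _).mp h1.symm).symm
  | succ q =>
    obtain ⟨t, ht, ht'⟩ := (hyp R c).ev_boundary h 0 (by simp)
    have h0 : ((q : ℕ) : ℤ) = ((q + 1 : ℕ) : ℤ) - 1 := by push_cast; ring
    refine ⟨(cmp R q _ h0 c.U).symm t, fun k => ?_, ?_⟩
    · rw [← map_smul]
      have := ht k
      rw [this, map_zero]
    · apply (cmp R (q + 1) _ rfl c.U).injective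
      rw [cmp_d R q _ _ h0 rfl, LinearEquiv.apply_symm_apply]
      exact ht'

theorem IsCls.ev_smul {c : KChart i r} {z : Sec (R.cochainComplex.X r) c.U} (h : IsCls R c z) (a : Γ(Y, c.U)) :
    Ev (d R c.U) c.f (cmp R r r rfl c.U (a • z)) (toJ R c.U a) := by
  have h2 := h.2.smul a
  rwa [smul_toJ, ← map_smul] at h2

theorem IsCls.gen {c : KChart i r} {z : Sec (R.cochainComplex.X r) c.U} (h : IsCls R c z)
    (x : Sec (R.cochainComplex.X r) c.U) (hx : ∀ k, c.f k • x = 0)
    (hd : appS (R.cochainComplex.d r (r + 1)) c.U x = 0) :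
    ∃ (a : Γ(Y, c.U)) (y : Sec (R.cochainComplex.X ((r : ℤ) - 1)) c.U), (∀ k, c.f k • y = 0) ∧
      x = a • z + appS (R.cochainComplex.d ((r : ℤ) - 1) r) c.U y := by
  obtain ⟨a, ha⟩ := (hyp R c).exists_ev (cmp R r r rfl c.U x) (by
      intro k
      rw [← map_smul, hx, map_zero]) (by
      exact (cmp_d R r r (r + 1) rfl rfl c.U x).symm.trans (by rw [hd, map_zero]))
  have h1 := ha.sub (h.ev_smul a)
  have h2 : a - toJ R c.U a = 0 := sub_self _
  rw [← map_sub, h2] at h1
  obtain ⟨y, hy, hy'⟩ := exists_boundary c _ h1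
  exact ⟨a, y, hy, by rw [hy', add_sub_cancel]⟩

theorem IsCls.unique {c : KChart i r} {z z1 : Sec (R.cochainComplex.X r) c.U} (h : IsCls R c z)
    (h1 : IsCls R c z1) : ∃ y : Sec (R.cochainComplex.X ((r : ℤ) - 1)) c.U, (∀ k, c.f k • y = 0) ∧
      z - z1 = appS (R.cochainComplex.d ((r : ℤ) - 1) r) c.U y := by
  have h2 := h.2.sub h1.2
  rw [sub_self, ← map_sub] at h2
  obtain ⟨y, hy, hy'⟩ := exists_boundary c _ h2
  exact ⟨y, hy, hy'.symm⟩

theorem IsCls.mem_span {c : KChart i r} {z : Sec (R.cochainComplex.X r) c.U} (h : IsCls R c z) (a : Γ(Y, c.U))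
    (y : Sec (R.cochainComplex.X ((r : ℤ) - 1)) c.U) (hy : ∀ k, c.f k • y = 0)
    (hyz : a • z = appS (R.cochainComplex.d ((r : ℤ) - 1) r) c.U y) : a ∈ Ideal.span (Set.range c.f) := by
  have h1 := h.ev_smul a
  have key : ∃ x : Fin r → J R c.U 0, toJ R c.U a = ∑ j, c.f j • x j := by
    apply (hyp R c).ev_zero
    cases r with
    | zero =>
      have h4 := sec_neg R _ (by simp) c.U y
      rw [hyz, h4, map_zero, map_zero] at h1
      exact h1
    | succ q =>
      have h0 : ((q : ℕ) : ℤ) = ((q + 1 : ℕ) : ℤ) - 1 := by push_cast; ring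
      have h5 : Ev (d R c.U) c.f (d R c.U (q + 1) (cmp R q _ h0 c.U y)) 0 := by
        refine ev_boundary_zero (Nat.succ_pos q) _ ?_
        intro k
        have := (cmp R q _ h0 c.U).map_smul (c.f k) y
        rw [hy, map_zero] at this
        exact this.symm
      rw [← cmp_d R q _ _ h0 rfl, ← hyz] at h5
      have h6 := h1.sub h5
      rw [sub_self, sub_zero] at h6
      exact h6
  obtain ⟨x, hx⟩ := key
  rw [show a = ∑ j, c.f j * (show Γ(Y, c.U) from x j) from hx]
  refine Ideal.sum_mem _ fun j _ => ?_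
  exact Ideal.mul_mem_right _ _ (Ideal.subset_span ⟨j, rfl⟩)

/-- The change of charts. -/
theorem IsCls.change {c c1 : KChart i r} (hc : c1.U ≤ c.U) (α : Matrix (Fin r) (Fin r) Γ(Y, c1.U))
    (hα : α.mulVec c1.f = fun j => resO Y hc (c.f j)) {z : Sec (R.cochainComplex.X r) c.U} (h : IsCls R c z) :
    IsCls R c1 (α.det • res _ hc z) := by
  have h1 : Ev (d R c1.U) (fun j => resO Y hc (c.f j)) (res _ hc (cmp R r r rfl c.U z)) (toJ R c1.U 1) := by
    have h2 := Ev.map (d' := d R c1.U) (resO Y hc) (fun q => res (JM R q) hc)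
      (fun q a e => res_smul _ hc a e) (fun q e => appS_res (dM R q) hc e) h.2
    rw [← res_toJ R hc]
    exact h2
  refine ⟨fun k => ?_, ?_⟩
  · have h4 : α.det • c1.f = α.adjugate.mulVec (fun j => resO Y hc (c.f j)) := by
      rw [← hα, Matrix.mulVec_mulVec, Matrix.adjugate_mul, Matrix.smul_mulVec, Matrix.one_mulVec]
    have h5 : c1.f k * α.det = ∑ j, α.adjugate k j * resO Y hc (c.f j) := by
      have := congrFun h4 k
      rw [Pi.smul_apply, smul_eq_mul, mul_comm] at this
      rw [this]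
      rfl
    rw [smul_smul, h5, Finset.sum_smul]
    refine Finset.sum_eq_zero fun j _ => ?_
    rw [mul_smul, ← res_smul, h.1 j, map_zero, smul_zero]
  · rw [map_smul, cmp_res]
    exact Ev.comp α hα h1

end Chart

end Groth.Agent.Dual.H377.ChartCls
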