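import Groth.Agent.Dual.H338.PushAdj
import Groth.Agent.Dual.H376.DetSec
import Groth.Agent.Krr.H495.Rank
import Groth.Agent.PerfA.QCohEpi
import Groth.Agent.PerfA.QCohSerre
import Groth.Agent.PerfB.TildeExact
import Groth.Prelude.Def_DDual2
import Groth.Prelude.Def_Omega2
import Groth.Prelude.Def_ExtPow2
import Groth.Prelude.Def_FlatMod2

/-!
# The right adjoint of `Ri_*` on `D_QCoh` at the structure sheaf, from the computation of `R Hom(O_X, O_Y)`
-/

set_option autoImplicit false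

universe w v u

open CategoryTheory CategoryTheory.Limits AlgebraicGeometry

attribute [local instance] HasDerivedCategory.standard

namespace Groth.Agent.Dual.H377.AdjGlue

open Groth.Agent.Dual.H338.PushAdj Groth.Agent.Sga67.LocBasis Groth.Agent.Dual.H376.DetSec

section Single

variable {C : Type u} [Category.{v} C] [Abelian C] [HasDerivedCategory.{w} C]

/-- An object with cohomology concentrated in one degree. -/
theorem nonempty_iso_single (E : DerivedCategory C) (n : ℤ)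
    (h0 : ∀ j : ℤ, j ≠ n → IsZero ((DerivedCategory.homologyFunctor C j).obj E)) (L : C)
    (hL : Nonempty ((DerivedCategory.homologyFunctor C n).obj E ≅ L)) :
    Nonempty (E ≅ ((DerivedCategory.singleFunctor C 0).obj L)⟦(-n)⟧) := by
  have h1 : E.IsGE n := (DerivedCategory.isGE_iff E n).mpr fun i hi => h0 i hi.ne
  have h2 : E.IsLE n := (DerivedCategory.isLE_iff E n).mpr fun i hi => h0 i hi.ne'
  obtain ⟨A, ⟨e⟩⟩ := DerivedCategory.exists_iso_singleFunctor_obj_of_isGE_of_isLE E n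
  obtain ⟨l⟩ := hL
  have e1 : A ≅ L := ((DerivedCategory.singleFunctorCompHomologyFunctorIso C n).app A).symm ≪≫
    (DerivedCategory.homologyFunctor C n).mapIso e.symm ≪≫ l
  exact ⟨e ≪≫ (DerivedCategory.singleFunctor C n).mapIso e1 ≪≫
    (((DerivedCategory.singleFunctors C).shiftIso (-n) n 0 (by omega)).app L).symm⟩

end Single

section Sch

variable {X Y : Scheme.{u}}

theorem isQCohD_of_hd (E : DCoh.D X) (n : ℤ) (h0 : ∀ j : ℤ, j ≠ n → IsZero (DCoh.HD E j)) (L : X.Modules)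
    (hL : Nonempty (DCoh.HD E n ≅ L)) (hq : Coh.IsQCoh L) : DCoh.IsQCohD E := by
  intro j
  by_cases hj : j = n
  · subst hj
    obtain ⟨l⟩ := hL
    exact Groth.Agent.PerfA.QCohSerre.isQCoh_of_iso l.symm hq
  · exact Groth.Agent.PerfA.QCohSerre.isQCoh_of_isZero (h0 j hj)

theorem isFinLocFree_dualMod {C : X.Modules} [DCoh.HasSheafHom C] (hC : FlatMod.IsFinLocFree C) :
    FlatMod.IsFinLocFree (dualMod C) := by
  apply isFinLocFree_of_exists
  intro x
  obtain ⟨U, n, hx, b, hb⟩ := (isFinLocFree_iff C).mp hC x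
  exact ⟨U, Fin n, inferInstance, nN hb, hx, isLocBasis_nN hb⟩

variable (i : X ⟶ Y)

/-- The right adjoint of `Ri_*` on `D_QCoh`, on an object whose `R Hom(O_X, -)` has quasi-coherent cohomology. -/
theorem nonempty_iso_adj [Dual3.HasHomO i] [PreservesFiniteColimits (Scheme.Modules.pushforward i)]
    [DCoh.HasRpush i] (hf : DCoh.RpushPreservesQCoh i) (a : DCoh.DQCoh Y ⥤ DCoh.DQCoh X)
    (adj : DCoh.RpushQ i hf ⊣ a) (O : DCoh.DQCoh Y) (E : DCoh.D X) (hE : DCoh.IsQCohD E)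
    (e : (RHomO i).obj O.obj ≅ E) : Nonempty ((a.obj O).obj ≅ E) := by
  let E' : DCoh.DQCoh X := ⟨E, hE⟩
  let F : (DCoh.DQCoh X)ᵒᵖ ⥤ Type (u + 1) := (DCoh.RpushQ i hf).op ⋙ yoneda.obj O
  let r1 : F.RepresentableBy (a.obj O) :=
    { homEquiv := fun {M} => (adj.homEquiv M O).symm
      homEquiv_comp := fun {M M'} f g => adj.homEquiv_naturality_left_symm f g }
  let e₂ (M : DCoh.DQCoh X) : ((DCoh.RpushQ i hf).obj M ⟶ O) ≃ (M ⟶ E') :=
    (((((ObjectProperty.fullyFaithfulι _).homEquiv (X := (DCoh.RpushQ i hf).obj M) (Y := O)).trans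
      (((rpushIsoPushD i).app M.obj).homFromEquiv)).trans
      ((pushAdj i).homEquiv M.obj O.obj)).trans e.homToEquiv).trans
      ((ObjectProperty.fullyFaithfulι _).homEquiv (X := M) (Y := E')).symm
  have he₂ : ∀ {M M' : DCoh.DQCoh X} (f : M ⟶ M') (g : (DCoh.RpushQ i hf).obj M' ⟶ O),
      e₂ M ((DCoh.RpushQ i hf).map f ≫ g) = f ≫ e₂ M' g := by
    intro M M' f g
    apply (ObjectProperty.fullyFaithfulι _).homEquiv.injective
    change (pushAdj i).homEquiv M.obj O.obj ((rpushIsoPushD i).inv.app M.obj ≫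
        (DCoh.Rpush i).map f.hom ≫ g.hom) ≫ e.hom =
      f.hom ≫ ((pushAdj i).homEquiv M'.obj O.obj ((rpushIsoPushD i).inv.app M'.obj ≫ g.hom) ≫ e.hom)
    have h1 := (rpushIsoPushD i).inv.naturality f.hom
    rw [← reassoc_of% h1, Adjunction.homEquiv_naturality_left, Category.assoc]
  let r2 : F.RepresentableBy E' :=
    { homEquiv := fun {M} => (e₂ M).symm
      homEquiv_comp := fun {M M'} f g => by
        rw [Equiv.symm_apply_eq]
        change f ≫ g = e₂ M ((DCoh.RpushQ i hf).map f ≫ (e₂ M').symm g)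
        rw [he₂, Equiv.apply_symm_apply] }
  exact ⟨(ObjectProperty.ι _).mapIso (r1.uniqueUpToIso r2)⟩

/-- The structure sheaf as an object of `D^+(O_Y)`. -/
noncomputable def plusO (Y : Scheme.{u}) : DerivedCategory.Plus Y.Modules :=
  ⟨DCoh.inD Y (Coh.structureModule Y), ⟨0, inferInstance⟩⟩

/-- Reduction to the computation of `R Hom(O_X, O_Y)` on `D^+`. -/
theorem of_plus (i : X ⟶ Y) [IsClosedImmersion i] (r : ℕ) (hC : FlatMod.IsFinLocFreeOfRank r (Omega.conormal i))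
    [DCoh.HasSheafHom (Omega.conormal i)] (L : X.Modules)
    (hL : ExtPow.IsExtPow r ((DCoh.sheafHom (Omega.conormal i)).obj (Coh.structureModule X)) L)
    [Dual3.HasHomO i] [EnoughInjectives Y.Modules]
    (H : (∀ j : ℤ, j ≠ (r : ℤ) → IsZero (DCoh.HD ((Dual3.RHomOPlus i).obj (plusO Y)).obj j)) ∧
      Nonempty (DCoh.HD ((Dual3.RHomOPlus i).obj (plusO Y)).obj (r : ℤ) ≅ L))
    [DCoh.HasRpush i] (hf : DCoh.RpushPreservesQCoh i) (a : DCoh.DQCoh Y ⥤ DCoh.DQCoh X)
    (adj : DCoh.RpushQ i hf ⊣ a) (O : DCoh.DQCoh Y) (hO : Nonempty (O.obj ≅ DCoh.inD Y (Coh.structureModule Y))) :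
    Nonempty ((a.obj O).obj ≅ (DCoh.inD X L)⟦(-(r : ℤ))⟧) := by
  have := Groth.Agent.PerfC.ClosedPush.preservesFiniteColimits i
  obtain ⟨o⟩ := hO
  have hq : Coh.IsQCoh L := Groth.Agent.PerfA.QCohEpi.isQCoh_of_isFinLocFree
    (isFinLocFree_of_isExtPow (isFinLocFree_dualMod
      (Groth.Agent.Krr.H495.Rank.isFinLocFree_of_rank hC)) hL)
  have e : (RHomO i).obj O.obj ≅ ((Dual3.RHomOPlus i).obj (plusO Y)).obj :=
    (RHomO i).mapIso o ≪≫ ((rhomPlusIso i).app (plusO Y)).symm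
  obtain ⟨e1⟩ := nonempty_iso_adj i hf a adj O _ (isQCohD_of_hd _ r H.1 L H.2 hq) e
  obtain ⟨e2⟩ := nonempty_iso_single _ (r : ℤ) H.1 L H.2
  exact ⟨e1 ≪≫ e2⟩

end Sch

end Groth.Agent.Dual.H377.AdjGlue
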