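import Groth.Agent.Sga67.KosAlt
import Groth.Agent.Sga67.KoszulTot

/-!
# Alternating maps and the total Koszul complex

`toI n k : Alt A n k E → (Idx n → E)` identifies the alternating maps of `k` variables on `A^n` with the degree `k`
part of the total Koszul complex of `KoszulTot`.
-/

set_option autoImplicit false
set_option linter.unusedVariables false

universe u v w

open Groth.Agent.Sga67.KosAlt Groth.Agent.Sga67.KoszulTot

namespace Groth.Agent.Dual.H377.AltIdx

variable {A : Type u} [CommRing A] {E : Type v} [AddCommGroup E] [Module A E]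

/-- The number of elements of a subset. -/
def deg : ∀ {n : ℕ}, Idx n → ℕ
  | 0, _ => 0
  | _ + 1, (true, s) => deg s + 1
  | _ + 1, (false, s) => deg s

/-- The full subset. -/
def full : ∀ n, Idx n
  | 0 => ()
  | n + 1 => (true, full n)

theorem deg_le : ∀ {n : ℕ} (s : Idx n), deg s ≤ n
  | 0, _ => le_rfl
  | n + 1, (true, s) => Nat.succ_le_succ (deg_le s)
  | n + 1, (false, s) => (deg_le s).trans (Nat.le_succ n)

theorem deg_full : ∀ n : ℕ, deg (full n) = n
  | 0 => rfl
  | n + 1 => congrArg (· + 1) (deg_full n)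

theorem eq_full : ∀ {n : ℕ} (s : Idx n), deg s = n → s = full n
  | 0, _, _ => rfl
  | n + 1, (true, s), h => by
    have : deg s = n := Nat.succ_injective h
    rw [eq_full s this]
    rfl
  | n + 1, (false, s), h => by
    have h1 := deg_le s
    have h2 : deg s = n + 1 := h
    omega

theorem deg_pt : ∀ n : ℕ, deg (pt n) = 0
  | 0 => rfl
  | n + 1 => deg_pt n

theorem eq_pt : ∀ {n : ℕ} (s : Idx n), deg s = 0 → s = pt n
  | 0, _, _ => rfl
  | n + 1, (true, s), h => by
    have : deg s + 1 = 0 := h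
    omega
  | n + 1, (false, s), h => by
    have : deg s = 0 := h
    rw [eq_pt s this]
    rfl

/-- The alternating map as an element of the total Koszul complex. -/
def toI : ∀ (n k : ℕ), Alt A n k E → Idx n → E
  | 0, 0, z => fun _ => z ![]
  | 0, _ + 1, _ => 0
  | n + 1, 0, z => pr 0 (toI n 0 (p1 z))
  | n + 1, k + 1, z => pr (toI n k (p2 z)) (toI n (k + 1) (p1 z))

theorem toI_add : ∀ (n k : ℕ) (z z' : Alt A n k E), toI n k (z + z') = toI n k z + toI n k z'
  | 0, 0, _, _ => rfl
  | 0, _ + 1, _, _ => (add_zero _).symm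
  | n + 1, 0, z, z' => by
    have ih := toI_add n 0 (p1 z) (p1 z')
    apply pr_ext
    · simp [toI]
    · simp only [toI, tl_pr, tl_add]
      exact ih
  | n + 1, k + 1, z, z' => by
    have ih := toI_add n (k + 1) (p1 z) (p1 z')
    have ih' := toI_add n k (p2 z) (p2 z')
    apply pr_ext
    · simp only [toI, hd_pr, hd_add]
      exact ih'
    · simp only [toI, tl_pr, tl_add]
      exact ih

theorem toI_zero (n k : ℕ) : toI n k (0 : Alt A n k E) = 0 := by
  have h := toI_add n k (0 : Alt A n k E) 0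
  rw [add_zero] at h
  exact left_eq_add.mp h

theorem toI_neg (n k : ℕ) (z : Alt A n k E) : toI n k (-z) = - toI n k z := by
  have h := toI_add n k z (-z)
  rw [add_neg_cancel, toI_zero] at h
  exact (neg_eq_of_add_eq_zero_right h.symm).symm

theorem toI_sub (n k : ℕ) (z z' : Alt A n k E) : toI n k (z - z') = toI n k z - toI n k z' := by
  rw [sub_eq_add_neg, toI_add, toI_neg, sub_eq_add_neg]

theorem toI_smul (a : A) : ∀ (n k : ℕ) (z : Alt A n k E), toI n k (a • z) = a • toI n k z
  | 0, 0, _ => rfl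
  | 0, _ + 1, _ => (smul_zero _).symm
  | n + 1, 0, z => by
    have ih := toI_smul a n 0 (p1 z)
    apply pr_ext
    · simp [toI]
    · simp only [toI, tl_pr, tl_smul]
      exact ih
  | n + 1, k + 1, z => by
    have ih := toI_smul a n (k + 1) (p1 z)
    have ih' := toI_smul a n k (p2 z)
    apply pr_ext
    · simp only [toI, hd_pr, hd_smul]
      exact ih'
    · simp only [toI, tl_pr, tl_smul]
      exact ih

theorem getcons {n : ℕ} (f : Fin (n + 1) → A) : f = f 0 • e0 A n + incl A n (f ∘ Fin.succ) := by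
  rw [← consVec_eq]
  funext i
  induction i using Fin.cases with
  | zero => rfl
  | succ i => rfl

/-- Compatibility with the differentials. -/
theorem D_toI : ∀ (n k : ℕ) (f : Fin n → A) (z : Alt A n (k + 1) E),
    D f (toI n (k + 1) z) = toI n k (z.curryLeft f)
  | 0, 0, f, z => by
    funext s
    have : z.curryLeft f ![] = 0 := by
      rw [AlternatingMap.curryLeft_apply_apply]
      refine z.map_coord_zero 0 ?_
      funext i
      exact Fin.elim0 i
    exact this.symm
  | 0, _ + 1, f, z => rfl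
  | n + 1, 0, f, z => by
    have h1 : p1 (z.curryLeft f) = f 0 • p2 z + (p1 z).curryLeft (f ∘ Fin.succ) := by
      conv_lhs => rw [getcons f]
      exact p1_curryLeft z _ _
    have ih := D_toI n 0 (f ∘ Fin.succ) (p1 z)
    have h0 : D (f ∘ Fin.succ) (toI n 0 (p2 z)) = 0 := by
      have key : ∀ (m : ℕ) (g : Fin m → A) (x : Alt A m 0 E), D g (toI m 0 x) = 0 := by
        intro m
        induction m with
        | zero => intro g x; rfl
        | succ m ihm =>
          intro g x
          apply pr_ext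
          · rw [hd_D]
            simp [toI]
          · rw [tl_D]
            simp only [toI, hd_pr, tl_pr, smul_zero, zero_add, tl_zero]
            exact ihm _ _
      exact key _ _ _
    apply pr_ext
    · rw [hd_D]
      simp only [toI, hd_pr]
      rw [h0, neg_zero]
    · rw [tl_D]
      simp only [toI, hd_pr, tl_pr]
      rw [h1, toI_add, toI_smul, ih]
  | n + 1, k + 1, f, z => by
    have h1 : p1 (z.curryLeft f) = f 0 • p2 z + (p1 z).curryLeft (f ∘ Fin.succ) := by
      conv_lhs => rw [getcons f]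
      exact p1_curryLeft z _ _
    have h2 : p2 (z.curryLeft f) = - (p2 z).curryLeft (f ∘ Fin.succ) := by
      conv_lhs => rw [getcons f]
      exact p2_curryLeft z _ _
    have ih := D_toI n (k + 1) (f ∘ Fin.succ) (p1 z)
    have ih' := D_toI n k (f ∘ Fin.succ) (p2 z)
    apply pr_ext
    · rw [hd_D]
      simp only [toI, hd_pr]
      rw [h2, toI_neg, ← ih']
    · rw [tl_D]
      simp only [toI, hd_pr, tl_pr]
      rw [h1, toI_add, toI_smul, ih]

theorem D_toI_zero : ∀ (n : ℕ) (f : Fin n → A) (z : Alt A n 0 E), D f (toI n 0 z) = 0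
  | 0, _, _ => rfl
  | n + 1, f, z => by
    apply pr_ext
    · rw [hd_D]
      simp [toI]
    · rw [tl_D]
      simp only [toI, hd_pr, tl_pr, smul_zero, zero_add, tl_zero]
      exact D_toI_zero n _ _

theorem toI_apply_ne : ∀ (n k : ℕ) (z : Alt A n k E) (s : Idx n), deg s ≠ k → toI n k z s = 0
  | 0, 0, z, s, h => absurd rfl h
  | 0, _ + 1, _, _, _ => rfl
  | n + 1, 0, z, (true, s), h => rfl
  | n + 1, 0, z, (false, s), h => toI_apply_ne n 0 (p1 z) s h
  | n + 1, k + 1, z, (true, s), h => toI_apply_ne n k (p2 z) s (fun h' => h (congrArg (· + 1) h'))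
  | n + 1, k + 1, z, (false, s), h => toI_apply_ne n (k + 1) (p1 z) s h

theorem alt_eq_zero_of_lt : ∀ (n k : ℕ), n < k → ∀ (z : Alt A n k E), z = 0
  | 0, 0, h, _ => absurd h (lt_irrefl _)
  | 0, k + 1, _, z => by
    ext v
    exact z.map_coord_zero 0 (funext fun i => Fin.elim0 i)
  | n + 1, 0, h, _ => absurd h (Nat.not_lt_zero _)
  | n + 1, k + 1, h, z => by
    refine eq_zero_of_p1_p2 (alt_eq_zero_of_lt n (k + 1) (by omega) _) (alt_eq_zero_of_lt n k (by omega) _)

theorem toI_injective_zero : ∀ (n : ℕ) (z : Alt A n 0 E), toI n 0 z = 0 → z = 0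
  | 0, z, h => by
    ext v
    have h1 : z ![] = 0 := congrFun h ()
    rw [Subsingleton.elim v ![], h1]
    rfl
  | n + 1, z, h => by
    have h1 : toI n 0 (p1 z) = 0 := congrArg tl h
    have h2 := toI_injective_zero n (p1 z) h1
    ext v
    have h3 : (p1 z) ![] = 0 := by rw [h2]; rfl
    rw [p1_apply] at h3
    rw [Subsingleton.elim v (fun i => incl A n (![] i)), h3]
    rfl

theorem toI_injective : ∀ (n k : ℕ) (z : Alt A n k E), toI n k z = 0 → z = 0
  | n, 0, z, h => toI_injective_zero n z h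
  | 0, k + 1, z, _ => alt_eq_zero_of_lt 0 (k + 1) (Nat.succ_pos k) z
  | n + 1, k + 1, z, h => by
    have h1 : toI n k (p2 z) = 0 := congrArg hd h
    have h2 : toI n (k + 1) (p1 z) = 0 := congrArg tl h
    exact eq_zero_of_p1_p2 (toI_injective n (k + 1) _ h2) (toI_injective n k _ h1)

theorem toI_inj (n k : ℕ) {z z' : Alt A n k E} (h : toI n k z = toI n k z') : z = z' := by
  rw [← sub_eq_zero]
  apply toI_injective
  rw [toI_sub, h, sub_self]

theorem exists_toI_zero : ∀ (n : ℕ) (t : Idx n → E), (∀ s, deg s ≠ 0 → t s = 0) → ∃ z : Alt A n 0 E, toI n 0 z = t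
  | 0, t, _ => ⟨AlternatingMap.constOfIsEmpty A (Fin 0 → A) (Fin 0) (t ()), rfl⟩
  | n + 1, t, h => by
    obtain ⟨z, hz⟩ := exists_toI_zero n (tl t) (fun s hs => h (false, s) hs)
    refine ⟨AlternatingMap.constOfIsEmpty A (Fin (n + 1) → A) (Fin 0) (z ![]), ?_⟩
    have h1 : p1 (AlternatingMap.constOfIsEmpty A (Fin (n + 1) → A) (Fin 0) (z ![])) = z := by
      ext v
      rw [Subsingleton.elim v ![]]
      rfl
    apply pr_ext
    · simp only [toI, hd_pr]
      funext s
      exact (h (true, s) (Nat.succ_ne_zero _)).symm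
    · simp only [toI, tl_pr]
      rw [h1, hz]

theorem exists_toI : ∀ (n k : ℕ) (t : Idx n → E), (∀ s, deg s ≠ k → t s = 0) → ∃ z : Alt A n k E, toI n k z = t
  | n, 0, t, h => exists_toI_zero n t h
  | 0, k + 1, t, h => ⟨0, funext fun s => (h s (Nat.succ_ne_zero k).symm).symm⟩
  | n + 1, k + 1, t, h => by
    obtain ⟨z1, hz1⟩ := exists_toI n (k + 1) (tl t) (fun s hs => h (false, s) hs)
    obtain ⟨z2, hz2⟩ := exists_toI n k (hd t) (fun s hs => h (true, s) (fun h' => hs (Nat.succ_injective h')))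
    obtain ⟨w, hw1, hw2⟩ := exists_p1_p2 z1 z2
    refine ⟨w, ?_⟩
    apply pr_ext
    · simp only [toI, hd_pr]
      rw [hw2, hz2]
    · simp only [toI, tl_pr]
      rw [hw1, hz1]

/-- The homogeneous components. -/
def comp {n : ℕ} (k : ℕ) (t : Idx n → E) : Idx n → E := fun s => if deg s = k then t s else 0

theorem comp_apply_ne {n : ℕ} (k : ℕ) (t : Idx n → E) (s : Idx n) (h : deg s ≠ k) : comp k t s = 0 := if_neg h

theorem comp_of {n : ℕ} (k : ℕ) (t : Idx n → E) (h : ∀ s, deg s ≠ k → t s = 0) : comp k t = t := by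
  funext s
  by_cases hs : deg s = k
  · exact if_pos hs
  · rw [comp_apply_ne k t s hs, h s hs]

theorem comp_add {n : ℕ} (k : ℕ) (t t' : Idx n → E) : comp k (t + t') = comp k t + comp k t' := by
  funext s
  by_cases hs : deg s = k
  · simp [comp, hs]
  · simp [comp, hs]

theorem comp_neg {n : ℕ} (k : ℕ) (t : Idx n → E) : comp k (-t) = - comp k t := by
  funext s
  by_cases hs : deg s = k
  · simp [comp, hs]
  · simp [comp, hs]

theorem comp_smul {n : ℕ} (a : A) (k : ℕ) (t : Idx n → E) : comp k (a • t) = a • comp k t := by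
  funext s
  by_cases hs : deg s = k
  · simp [comp, hs]
  · simp [comp, hs]

theorem tl_comp {n : ℕ} (k : ℕ) (t : Idx (n + 1) → E) : tl (comp k t) = comp k (tl t) := rfl

theorem hd_comp_succ {n : ℕ} (k : ℕ) (t : Idx (n + 1) → E) : hd (comp (k + 1) t) = comp k (hd t) := by
  funext s
  change (if deg s + 1 = k + 1 then t (true, s) else 0) = if deg s = k then t (true, s) else 0
  by_cases h : deg s = k
  · rw [if_pos h, if_pos (by rw [h])]
  · rw [if_neg h, if_neg (by omega)]

theorem hd_comp_zero {n : ℕ} (t : Idx (n + 1) → E) : hd (comp 0 t) = 0 := by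
  funext s
  change (if deg s + 1 = 0 then t (true, s) else 0) = 0
  rw [if_neg (by omega)]

theorem D_comp_zero : ∀ {n : ℕ} (f : Fin n → A) (t : Idx n → E), D f (comp 0 t) = 0
  | 0, _, _ => rfl
  | n + 1, f, t => by
    apply pr_ext
    · rw [hd_D, hd_comp_zero, map_zero, neg_zero, hd_zero]
    · rw [tl_D, hd_comp_zero, tl_comp, smul_zero, zero_add, D_comp_zero, tl_zero]

theorem D_comp_succ : ∀ {n : ℕ} (f : Fin n → A) (k : ℕ) (t : Idx n → E), D f (comp (k + 1) t) = comp k (D f t)
  | 0, _, _, _ => by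
    funext s
    change (0 : E) = if deg s = _ then (0 : E) else 0
    split_ifs <;> rfl
  | n + 1, f, 0, t => by
    apply pr_ext
    · rw [hd_D, hd_comp_succ, D_comp_zero, neg_zero, hd_comp_zero]
    · rw [tl_D, hd_comp_succ, tl_comp, D_comp_succ, tl_comp, tl_D, comp_add, comp_smul]
  | n + 1, f, k + 1, t => by
    apply pr_ext
    · rw [hd_D, hd_comp_succ, D_comp_succ, hd_comp_succ, hd_D, comp_neg]
    · rw [tl_D, hd_comp_succ, tl_comp, D_comp_succ, tl_comp, tl_D, comp_add, comp_smul]

theorem sum_comp {n : ℕ} (t : Idx n → E) : ∑ k ∈ Finset.range (n + 1), comp k t = t := by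
  funext s
  rw [Finset.sum_apply]
  rw [Finset.sum_eq_single (deg s)]
  · exact if_pos rfl
  · intro k _ hk
    exact comp_apply_ne k t s (Ne.symm hk)
  · intro h
    exact absurd (Finset.mem_range.mpr (Nat.lt_succ_of_le (deg_le s))) h

theorem comp_succ_inj0 {n : ℕ} (k : ℕ) (a : E) : comp (k + 1) (inj0 (n := n) a) = 0 := by
  funext s
  by_cases hs : deg s = k + 1
  · have : s ≠ pt n := by
      rintro rfl
      rw [deg_pt] at hs
      omega
    change (if deg s = k + 1 then _ else _) = _
    rw [if_pos hs, inj0_apply_ne _ _ this]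
    rfl
  · exact comp_apply_ne _ _ _ hs

theorem comp_zero_eq {n : ℕ} (t : Idx n → E) : comp 0 t = inj0 (t (pt n)) := by
  funext s
  by_cases hs : deg s = 0
  · have := eq_pt s hs
    subst this
    rw [inj0_pt]
    exact if_pos hs
  · rw [comp_apply_ne _ _ _ hs, inj0_apply_ne]
    rintro rfl
    exact hs (deg_pt n)

/-- From exactness of the total Koszul complex to exactness in terms of alternating maps. -/
theorem alt_of_idx {n : ℕ} (f : Fin n → A)
    (h : ∀ z : Idx n → E, D f z = 0 → ∃ (w : Idx n → E) (a : E), z = D f w + inj0 a)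
    (k : ℕ) (z : Alt A n (k + 1) E) (hz : z.curryLeft f = 0) : ∃ w : Alt A n (k + 2) E, w.curryLeft f = z := by
  obtain ⟨w, a, hw⟩ := h (toI n (k + 1) z) (by rw [D_toI, hz, toI_zero])
  obtain ⟨w', hw'⟩ := exists_toI (A := A) n (k + 2) (comp (k + 2) w) (fun s hs => comp_apply_ne _ _ _ hs)
  refine ⟨w', toI_inj n (k + 1) ?_⟩
  rw [← D_toI, hw', D_comp_succ, ← comp_of (k + 1) (toI n (k + 1) z) (fun s hs => toI_apply_ne _ _ _ _ hs), hw,
    comp_add, comp_succ_inj0, add_zero]

/-- From exactness in terms of alternating maps to exactness of the total Koszul complex. -/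
theorem idx_of_alt {n : ℕ} (f : Fin n → A)
    (h : ∀ (k : ℕ) (z : Alt A n (k + 1) E), z.curryLeft f = 0 → ∃ w : Alt A n (k + 2) E, w.curryLeft f = z)
    (z : Idx n → E) (hz : D f z = 0) : ∃ (w : Idx n → E) (a : E), z = D f w + inj0 a := by
  have h1 : ∀ k, ∃ w : Idx n → E, D f w = comp (k + 1) z := by
    intro k
    obtain ⟨z', hz'⟩ := exists_toI (A := A) n (k + 1) (comp (k + 1) z) (fun s hs => comp_apply_ne _ _ _ hs)
    obtain ⟨w, hw⟩ := h k z' (toI_inj n k (by
      rw [← D_toI, hz', D_comp_succ, hz, toI_zero]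
      funext s
      change (if deg s = k then (0 : E) else 0) = 0
      split_ifs <;> rfl))
    exact ⟨toI n (k + 2) w, by rw [D_toI, hw, hz']⟩
  choose w hw using h1
  refine ⟨∑ k ∈ Finset.range n, w k, z (pt n), ?_⟩
  conv_lhs => rw [← sum_comp z, Finset.sum_range_succ']
  rw [map_sum, comp_zero_eq]
  congr 1
  exact Finset.sum_congr rfl fun k _ => (hw k).symm

end Groth.Agent.Dual.H377.AltIdx
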