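import Groth.Agent.Dual.H377.ZigE
import Mathlib.LinearAlgebra.Matrix.Determinant.Basic
import Mathlib.LinearAlgebra.Alternating.Basic

/-!
# The residue relation `Ev` for a coresolution

For an exact complex `J 0 → J 1 → …` and `f : Fin n → A`, `Ev d f s a` (`s : J (n + 1)`, `a : J 0`) says that `det ⊗ s` and
`a` are connected by a zigzag.  Under Koszul exactness conditions (`Hyp`), it induces an isomorphism of the `n`-th
cohomology of the `f`-torsion of `J 1 → J 2 → …` with `J 0 / (f)`, and the other cohomology modules vanish.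
-/

set_option autoImplicit false
set_option linter.unusedVariables false

universe u v w

open Groth.Agent.Sga67.KosAlt Groth.Agent.Sga67.KoszulTot Groth.Agent.Dual.H377.AltIdx
  Groth.Agent.Dual.H377.InjExact Groth.Agent.Dual.H377.ZigE

namespace Groth.Agent.Dual.H377.EvAlg

section Top

variable {A : Type u} [CommRing A] {n : ℕ} {E : Type v} [AddCommGroup E] [Module A E]

/-- The standard basis. -/
noncomputable def bas (A : Type u) [CommRing A] (n : ℕ) : Fin n → Fin n → A := fun i => Pi.basisFun A (Fin n) i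

/-- The top degree alternating map `det ⊗ s`. -/
noncomputable def vol (s : E) : Alt A n n E :=
  (LinearMap.toSpanSingleton A E s).compAlternatingMap Matrix.detRowAlternating

theorem vol_apply (s : E) (v : Fin n → Fin n → A) : vol s v = (Matrix.of v).det • s := rfl

theorem vol_bas (s : E) : vol s (bas A n) = s := by
  rw [vol_apply]
  have : (Matrix.of (bas A n)) = 1 := by
    ext i j
    simp [bas, Matrix.one_apply, Pi.single_apply, eq_comm]
  rw [this, Matrix.det_one, one_smul]

theorem top_ext {T T' : Alt A n n E} (h : T (bas A n) = T' (bas A n)) : T = T' := by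
  refine Module.Basis.ext_alternating (Pi.basisFun A (Fin n)) ?_
  intro v hv
  let σ : Equiv.Perm (Fin n) := Equiv.ofBijective v (Finite.injective_iff_bijective.mp hv)
  have h1 : (fun i => Pi.basisFun A (Fin n) (v i)) = bas A n ∘ σ := rfl
  rw [h1, AlternatingMap.map_perm, AlternatingMap.map_perm, h]

theorem eq_vol (T : Alt A n n E) : T = vol (T (bas A n)) := top_ext (vol_bas _).symm

theorem vol_add (s s' : E) : (vol (s + s') : Alt A n n E) = vol s + vol s' :=
  top_ext (by rw [AlternatingMap.add_apply, vol_bas, vol_bas, vol_bas])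

theorem vol_smul (a : A) (s : E) : (vol (a • s) : Alt A n n E) = a • vol s :=
  top_ext (by rw [AlternatingMap.smul_apply, vol_bas, vol_bas])

theorem vol_zero : (vol (0 : E) : Alt A n n E) = 0 := by
  apply top_ext
  rw [vol_bas]
  rfl

theorem cy_vol (f : Fin n → A) (s : E) (h : ∀ j, f j • s = 0) : Cy f (vol s : Alt A n n E) := by
  cases n with
  | zero => trivial
  | succ m =>
    change (vol s : Alt A (m + 1) (m + 1) E).curryLeft f = 0
    rw [curryLeft_eq_sum]
    refine Finset.sum_eq_zero fun j _ => ?_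
    ext v
    rw [AlternatingMap.smul_apply, AlternatingMap.curryLeft_apply_apply, vol_apply, smul_comm, h, smul_zero]
    rfl

theorem alt_sum_apply {k : ℕ} {κ : Type*} (s : Finset κ) (z : κ → Alt A n k E) (v : Fin k → Fin n → A) :
    (∑ l ∈ s, z l) v = ∑ l ∈ s, z l v := by
  classical
  induction s using Finset.induction_on with
  | empty => simp
  | insert l s hl ih => rw [Finset.sum_insert hl, Finset.sum_insert hl, AlternatingMap.add_apply, ih]

theorem smul_eq_zero_of_cy (f : Fin n → A) (T : Alt A n n E) (h : Cy f T) (j : Fin n) : f j • T (bas A n) = 0 := by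
  cases n with
  | zero => exact Fin.elim0 j
  | succ m =>
    have h1 : T.curryLeft f = 0 := h
    have h2 : T.curryLeft f (fun i => bas A (m + 1) (j.succAbove i)) = 0 := by rw [h1]; rfl
    rw [curryLeft_eq_sum, alt_sum_apply, Finset.sum_eq_single j] at h2
    · rw [AlternatingMap.smul_apply, AlternatingMap.curryLeft_apply_apply] at h2
      have h3 : (Matrix.vecCons (Pi.basisFun A (Fin (m + 1)) j) fun i => bas A (m + 1) (j.succAbove i)) =
          bas A (m + 1) ∘ j.cycleRange.symm := by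
        funext i
        induction i using Fin.cases with
        | zero =>
          rw [Function.comp_apply, Fin.cycleRange_symm_zero]
          rfl
        | succ i =>
          rw [Function.comp_apply, Fin.cycleRange_symm_succ]
          rfl
      rw [h3, AlternatingMap.map_perm] at h2
      rcases Int.units_eq_one_or (Equiv.Perm.sign j.cycleRange.symm) with h4 | h4
      · rw [h4, one_smul] at h2
        exact h2
      · rw [h4] at h2
        have h5 : ((-1 : ℤˣ)) • T (bas A (m + 1)) = - T (bas A (m + 1)) := by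
          rw [Units.smul_def]
          simp
        rw [h5, smul_neg, neg_eq_zero] at h2
        exact h2
    · intro l _ hl
      rw [AlternatingMap.smul_apply, AlternatingMap.curryLeft_apply_apply]
      obtain ⟨i, hi⟩ := Fin.exists_succAbove_eq hl
      rw [T.map_eq_zero_of_eq _ (i := 0) (j := i.succ) (by
        rw [Matrix.cons_val_zero, Matrix.cons_val_succ, hi]
        rfl) (Fin.succ_ne_zero i).symm, smul_zero]
    · intro h
      exact absurd (Finset.mem_univ j) h

theorem vol_compLinearMap (s : E) (α : Matrix (Fin n) (Fin n) A) :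
    (vol s : Alt A n n E).compLinearMap α.mulVecLin = vol (α.det • s) := by
  apply top_ext
  rw [vol_bas, AlternatingMap.compLinearMap_apply, vol_apply, ← Matrix.det_transpose α]
  congr 2
  ext i j
  simp [bas, Matrix.mulVecLin_apply]

/-- Elements as alternating maps in zero variables. -/
def cst (A : Type u) [CommRing A] (n : ℕ) {E : Type v} [AddCommGroup E] [Module A E] (a : E) : Alt A n 0 E :=
  AlternatingMap.constOfIsEmpty A (Fin n → A) (Fin 0) a

theorem cst_apply (a : E) (v : Fin 0 → Fin n → A) : cst A n a v = a := rfl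

theorem eq_cst (z : Alt A n 0 E) : z = cst A n (z ![]) := by
  ext v
  rw [cst_apply, Subsingleton.elim v ![]]

theorem cst_ext {z z' : Alt A n 0 E} (h : z ![] = z' ![]) : z = z' := by
  rw [eq_cst z, eq_cst z', h]

theorem cst_add (a a' : E) : cst A n (a + a') = cst A n a + cst A n a' := cst_ext rfl

theorem cst_smul (c : A) (a : E) : cst A n (c • a) = c • cst A n a := cst_ext rfl

theorem cst_zero : cst A n (0 : E) = 0 := cst_ext rfl

theorem curryLeft_one_apply (x : Alt A n 1 E) (f : Fin n → A) :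
    x.curryLeft f ![] = ∑ j, f j • x (fun _ => Pi.basisFun A (Fin n) j) := by
  rw [curryLeft_eq_sum, alt_sum_apply]
  refine Finset.sum_congr rfl fun j _ => ?_
  rw [AlternatingMap.smul_apply, AlternatingMap.curryLeft_apply_apply]
  congr 2
  funext i
  rw [Subsingleton.elim i 0]
  rfl

theorem exists_alt_one (x : Fin n → E) : ∃ z : Alt A n 1 E, ∀ j, z (fun _ => Pi.basisFun A (Fin n) j) = x j := by
  let L : (Fin n → A) →ₗ[A] E := (Pi.basisFun A (Fin n)).constr A x
  refine ⟨AlternatingMap.ofSubsingleton A _ _ (0 : Fin 1) L, fun j => ?_⟩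
  change L (Pi.basisFun A (Fin n) j) = x j
  exact Module.Basis.constr_basis _ _ _ _

variable {A' : Type u} [CommRing A'] {E' : Type v} [AddCommGroup E'] [Module A' E']

theorem bc_vol (φ : A →+* A') (ρ : E →+ E') (hρ : ∀ (a : A) (e : E), ρ (a • e) = φ a • ρ e) (s : E) :
    bc A' ρ (vol s : Alt A n n E) = vol (ρ s) := by
  apply top_ext
  rw [vol_bas]
  have h : bas A' n = fun i j => φ (bas A n i j) := by
    funext i j
    simp only [bas, Pi.basisFun_apply, Pi.single_apply]
    split_ifs <;> simp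
  rw [h, bc_apply φ ρ hρ, vol_bas]

theorem bc_cst (φ : A →+* A') (ρ : E →+ E') (hρ : ∀ (a : A) (e : E), ρ (a • e) = φ a • ρ e) (a : E) :
    bc A' ρ (cst A n a) = cst A' n (ρ a) := by
  apply cst_ext
  rw [cst_apply]
  have h : (![] : Fin 0 → Fin n → A') = fun i j => φ ((![] : Fin 0 → Fin n → A) i j) := Subsingleton.elim _ _
  rw [h, bc_apply φ ρ hρ]
  rfl

end Top

section Ev

variable {A : Type u} [CommRing A] {n : ℕ} {J : ℕ → Type u} [∀ q, AddCommGroup (J q)] [∀ q, Module A (J q)]
  (d : ∀ q, J q →ₗ[A] J (q + 1)) (f : Fin n → A)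

/-- The residue relation. -/
def Ev (s : J (n + 1)) (a : J 0) : Prop := Zg d f (vol s : Alt A n n (J (n + 1))) n 0 0 (cst A n a)

/-- Exactness of `J` and Koszul exactness of its terms. -/
structure Hyp : Prop where
  hdd : ∀ q x, d (q + 1) (d q x) = 0
  hex0 : ∀ x, d 0 x = 0 → x = 0
  hex : ∀ q x, d (q + 1) x = 0 → ∃ y, d q y = x
  K0 : ∀ k (z : Alt A n (k + 1) (J 0)), z.curryLeft f = 0 → ∃ w : Alt A n (k + 2) (J 0), w.curryLeft f = z
  K1 : ∀ q k, k < n → ∀ z : Alt A n k (J (q + 1)), Cy f z → ∃ w : Alt A n (k + 1) (J (q + 1)), w.curryLeft f = z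

variable {d f}

theorem Ev.add {s s' : J (n + 1)} {a a' : J 0} (h : Ev d f s a) (h' : Ev d f s' a') : Ev d f (s + s') (a + a') := by
  have := Zg.add h h'
  rwa [← vol_add, ← cst_add] at this

theorem Ev.smul {s : J (n + 1)} {a : J 0} (c : A) (h : Ev d f s a) : Ev d f (c • s) (c • a) := by
  have := Zg.smul c h
  rwa [← vol_smul, ← cst_smul] at this

theorem Ev.sub {s s' : J (n + 1)} {a a' : J 0} (h : Ev d f s a) (h' : Ev d f s' a') : Ev d f (s - s') (a - a') := by
  have := h.add (h'.smul (-1))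
  rwa [neg_one_smul, neg_one_smul, ← sub_eq_add_neg, ← sub_eq_add_neg] at this

theorem comp_vol {q : ℕ} (s : J q) : (d q).compAlternatingMap (vol s : Alt A n n (J q)) = vol (d q s) := by
  apply top_ext
  rw [LinearMap.compAlternatingMap_apply, vol_bas, vol_bas]

theorem Ev.comp {f' : Fin n → A} (α : Matrix (Fin n) (Fin n) A) (hf : α.mulVec f' = f) {s : J (n + 1)} {a : J 0}
    (h : Ev d f s a) : Ev d f' (α.det • s) a := by
  have h1 := Zg.compLinearMap α.mulVecLin f' hf h
  rw [vol_compLinearMap] at h1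
  have h2 : (cst A n a).compLinearMap α.mulVecLin = cst A n a := cst_ext rfl
  rwa [h2] at h1

theorem Hyp.exists_ev (H : Hyp d f) (s : J (n + 1)) (hf : ∀ j, f j • s = 0) (hd : d (n + 1) s = 0) :
    ∃ a, Ev d f s a := by
  obtain ⟨a, ha⟩ := exists_zg (S := (vol s : Alt A n n (J (n + 1)))) H.hex (cy_vol f s hf) (by
    rw [comp_vol, hd, vol_zero]) n 0 0 (zero_add n) (zero_add n)
  refine ⟨a ![], ?_⟩
  rw [eq_cst a] at ha
  exact ha

theorem Ev.d_eq_zero (H : Hyp d f) {s : J (n + 1)} {a : J 0} (h : Ev d f s a) : d (n + 1) s = 0 := by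
  have h1 := Zg.comp_eq_zero H.hdd h
  rw [comp_vol] at h1
  have h2 := congrArg (fun T : Alt A n n (J (n + 2)) => T (bas A n)) h1
  rw [← vol_bas (A := A) (n := n) (d (n + 1) s)]
  exact h2

theorem Hyp.ev_zero (H : Hyp d f) {a : J 0} (h : Ev d f 0 a) : ∃ x : Fin n → J 0, a = ∑ j, f j • x j := by
  obtain ⟨x, hx⟩ := Zg.zero H.hdd H.hex vol_zero h
  have h1 := eq_zero_of_comp H.hex0 _ hx
  refine ⟨fun j => x (fun _ => Pi.basisFun A (Fin n) j), ?_⟩
  rw [← curryLeft_one_apply]
  have h2 := congrArg (fun T : Alt A n 0 (J 0) => T ![]) h1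
  have h3 : a - x.curryLeft f ![] = 0 := h2
  exact sub_eq_zero.mp h3

/-- An element of degree `k + 1` over the last index. -/
theorem Hyp.up_aux (H : Hyp d f) {Q : ℕ} {S : Alt A n n (J (Q + 1))} {m k : ℕ} {a : Alt A n k (J 0)}
    (h : Zg d f S m k 0 a) (hk : k + m = n) (x : Alt A n (k + 1) (J 0)) (hx : a = x.curryLeft f) :
    (m = 0 ∧ S = 0) ∨ ∃ T : Alt A n n (J Q), Cy f T ∧ (d Q).compAlternatingMap T = S := by
  cases h with
  | base a h =>
    left
    have h1 : x = 0 := alt_eq_zero_of_lt n (n + 1) (Nat.lt_succ_self n) x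
    refine ⟨rfl, ?_⟩
    rw [← h, hx, h1, curry_zero, comp_zero']
  | step a b h hb =>
    right
    refine Zg.up H.hdd H.K1 hb (Nat.succ_pos _) (by omega) ((d 0).compAlternatingMap x) (comp_comp_eq_zero H.hdd _) ?_
    change (b - (d 0).compAlternatingMap x).curryLeft f = 0
    rw [curry_sub, h, ← comp_curryLeft, ← hx, sub_self]

theorem exists_of_cy_comp {Q : ℕ} {s : J (Q + 1)} {T : Alt A n n (J Q)} (hT : Cy f T)
    (h : (d Q).compAlternatingMap T = vol s) : ∃ t : J Q, (∀ j, f j • t = 0) ∧ d Q t = s := by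
  refine ⟨T (bas A n), smul_eq_zero_of_cy f T hT, ?_⟩
  rw [← LinearMap.compAlternatingMap_apply, h, vol_bas]

theorem Hyp.ev_boundary (H : Hyp d f) {s : J (n + 1)} {a : J 0} (h : Ev d f s a) (x : Fin n → J 0)
    (hx : a = ∑ j, f j • x j) : ∃ t : J n, (∀ j, f j • t = 0) ∧ d n t = s := by
  obtain ⟨z, hz⟩ := exists_alt_one (A := A) x
  rcases H.up_aux h (zero_add n) z (by
    apply cst_ext
    rw [curryLeft_one_apply, cst_apply, hx]
    exact Finset.sum_congr rfl fun j _ => by rw [hz]) with ⟨hn, hS⟩ | ⟨T, hT, hT'⟩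
  · refine ⟨0, fun j => smul_zero _, ?_⟩
    rw [map_zero, ← vol_bas (A := A) (n := n) s, hS]
    rfl
  · exact exists_of_cy_comp hT hT'

theorem Hyp.exists_of (H : Hyp d f) (a : J 0) : ∃ s : J (n + 1), (∀ j, f j • s = 0) ∧ d (n + 1) s = 0 ∧ Ev d f s a := by
  obtain ⟨S, hS, hS'⟩ := exists_zg_up (d := d) (f := f) H.hdd H.K1 (Q := n) n 0 0 (cst A n a) (zero_add n)
    (zero_add n) trivial
  have h1 : Ev d f (S (bas A n)) a := by
    have := hS'
    rw [eq_vol S] at this
    exact this
  exact ⟨S (bas A n), smul_eq_zero_of_cy f S hS, h1.d_eq_zero H, h1⟩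

/-- Vanishing in degree `0`. -/
theorem Hyp.vanish_zero (H : Hyp d f) (hn : n ≠ 0) (s : J 1) (hf : ∀ j, f j • s = 0) (hd : d 1 s = 0) : s = 0 := by
  obtain ⟨a, ha⟩ := exists_zg (S := (vol s : Alt A n n (J 1))) H.hex (cy_vol f s hf) (by
    rw [comp_vol, hd, vol_zero]) 0 n 0 rfl rfl
  obtain ⟨m, rfl⟩ := Nat.exists_eq_succ_of_ne_zero hn
  have h1 := eq_zero_of_comp H.hex0 _ (ha.d_iota (cy_vol f s hf))
  obtain ⟨w, hw⟩ := H.K0 m a h1
  rcases H.up_aux ha rfl w hw.symm with ⟨-, hS⟩ | ⟨T, hT, hT'⟩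
  · rw [← vol_bas (A := A) (n := m + 1) s, hS]
    rfl
  · have h2 : T = 0 := by
      cases ha with
      | base a h =>
        obtain ⟨w', hw'⟩ := H.K0 m T hT
        rw [← hw', alt_eq_zero_of_lt (m + 1) (m + 2) (Nat.lt_succ_self _) w', curry_zero]
    rw [← vol_bas (A := A) (n := m + 1) s, ← hT', h2, comp_zero']
    rfl

/-- Vanishing in positive degrees different from `n`. -/
theorem Hyp.vanish_succ (H : Hyp d f) (j : ℕ) (hj : j + 1 ≠ n) (s : J (j + 2)) (hf : ∀ i, f i • s = 0)
    (hd : d (j + 2) s = 0) : ∃ t : J (j + 1), (∀ i, f i • t = 0) ∧ d (j + 1) t = s := by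
  have hS : Cy f (vol s : Alt A n n (J (j + 2))) := cy_vol f s hf
  have hdS : (d (j + 2)).compAlternatingMap (vol s : Alt A n n (J (j + 2))) = 0 := by rw [comp_vol, hd, vol_zero]
  rcases lt_or_gt_of_ne hj with hlt | hgt
  · -- `j + 1 < n`
    obtain ⟨k, rfl⟩ := Nat.exists_eq_add_of_lt hlt
    obtain ⟨a, ha⟩ := exists_zg H.hex hS hdS (j + 1) (k + 1) 0 (by omega) (zero_add _)
    have h1 := eq_zero_of_comp H.hex0 _ (ha.d_iota hS)
    obtain ⟨w, hw⟩ := H.K0 k a h1
    rcases H.up_aux ha (by omega) w hw.symm with ⟨h, -⟩ | ⟨T, hT, hT'⟩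
    · exact absurd h (Nat.succ_ne_zero j)
    · exact exists_of_cy_comp hT hT'
  · -- `n < j + 1`
    obtain ⟨k, hk⟩ := Nat.exists_eq_add_of_lt hgt
    obtain ⟨a, ha⟩ := exists_zg H.hex hS hdS n 0 (k + 1) (zero_add n) (by omega)
    obtain ⟨T, hT, hT'⟩ := Zg.up H.hdd H.K1 ha (Nat.succ_pos k) (zero_add n) 0 comp_zero' trivial
    exact exists_of_cy_comp hT hT'

end Ev

section EvMap

variable {A : Type u} [CommRing A] {A' : Type u} [CommRing A'] {n : ℕ}
  {J : ℕ → Type u} [∀ q, AddCommGroup (J q)] [∀ q, Module A (J q)]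
  {J' : ℕ → Type u} [∀ q, AddCommGroup (J' q)] [∀ q, Module A' (J' q)]
  {d : ∀ q, J q →ₗ[A] J (q + 1)} {d' : ∀ q, J' q →ₗ[A'] J' (q + 1)} {f : Fin n → A}

theorem Ev.map (φ : A →+* A') (ρ : ∀ q, J q →+ J' q) (hρ : ∀ q (a : A) (e : J q), ρ q (a • e) = φ a • ρ q e)
    (hd : ∀ q e, d' q (ρ q e) = ρ (q + 1) (d q e)) {s : J (n + 1)} {a : J 0} (h : Ev d f s a) :
    Ev d' (fun j => φ (f j)) (ρ (n + 1) s) (ρ 0 a) := by
  have h1 := Zg.map φ ρ hρ hd h
  rwa [bc_vol φ (ρ (n + 1)) (hρ (n + 1)), bc_cst φ (ρ 0) (hρ 0)] at h1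

end EvMap

end Groth.Agent.Dual.H377.EvAlg
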