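import Groth.Agent.Dual.H377.ChartCls
import Groth.Agent.Dual.H376.ExtData

/-!
# The data `ExtData` for an injective resolution of the structure sheaf
-/

set_option autoImplicit false

universe u

open CategoryTheory CategoryTheory.Limits AlgebraicGeometry Opposite TopologicalSpace
open Groth.Agent.Sga67.Sec Groth.Agent.Dual.H377.KChart Groth.Agent.Dual.H377.ChartCls Groth.Agent.Dual.H376.ExtData

namespace Groth.Agent.Dual.H377.ExtInst

variable {X Y : Scheme.{u}} (i : X ⟶ Y) (r : ℕ) (R : InjectiveResolution (Coh.structureModule Y))

/-- The data for an injective resolution of the structure sheaf. -/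
noncomputable def extData : ExtData i r R.cochainComplex where
  van c p j h hj x hx hd := by
    subst h
    exact van R c p hj x hx hd
  IsCls c z := IsCls R c z
  exists_cls c := exists_isCls R c
  tors c z h := h.smul_eq_zero
  cocyc c z h := h.d_eq_zero
  gen c z h p hp x hx hd := by
    obtain rfl : p = (r : ℤ) - 1 := by omega
    exact h.gen x hx hd
  inj c z h p hp a y hy hyz := by
    obtain rfl : p = (r : ℤ) - 1 := by omega
    exact h.mem_span a y hy hyz
  change c c' h α hα z hz := IsCls.change h α hα hz
  unique c z z' h h' p hp := by
    obtain rfl : p = (r : ℤ) - 1 := by omega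
    exact h.unique h'

theorem nonempty_extData : Nonempty (ExtData i r R.cochainComplex) := ⟨extData i r R⟩

end Groth.Agent.Dual.H377.ExtInst
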