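import Groth.Agent.Dual.H377.AltIdx
import Mathlib.Algebra.Module.Injective
import Mathlib.LinearAlgebra.Isomorphisms

/-!
# Koszul exactness with coefficients in an injective module

If the Koszul complex of `f : Fin n → A` on `A` is exact in positive (homological) degrees and `E` is an injective
`A`-module, the Koszul complex on `E` is exact in degrees `< n`.
-/

set_option autoImplicit false
set_option linter.unusedVariables false

universe u v w

open Groth.Agent.Sga67.KosAlt Groth.Agent.Sga67.KoszulTot Groth.Agent.Dual.H377.AltIdx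

namespace Groth.Agent.Dual.H377.InjExact

variable {A : Type u} [CommRing A] {E : Type v} [AddCommGroup E] [Module A E]

/-- the first component as a linear map -/
def hdL (n : ℕ) : (Idx (n + 1) → A) →ₗ[A] (Idx n → A) where
  toFun := hd
  map_add' _ _ := rfl
  map_smul' _ _ := rfl

/-- the second component as a linear map -/
def tlL (n : ℕ) : (Idx (n + 1) → A) →ₗ[A] (Idx n → A) where
  toFun := tl
  map_add' _ _ := rfl
  map_smul' _ _ := rfl

/-- inclusion of the first component -/
def inL (n : ℕ) : (Idx n → A) →ₗ[A] (Idx (n + 1) → A) where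
  toFun t := pr t 0
  map_add' t t' := by
    apply pr_ext <;> simp
  map_smul' a t := by
    apply pr_ext <;> simp

/-- inclusion of the second component -/
def inR (n : ℕ) : (Idx n → A) →ₗ[A] (Idx (n + 1) → A) where
  toFun t := pr 0 t
  map_add' t t' := by
    apply pr_ext <;> simp
  map_smul' a t := by
    apply pr_ext <;> simp

theorem inL_add_inR {n : ℕ} (t : Idx (n + 1) → A) : inL n (hd t) + inR n (tl t) = t := by
  apply pr_ext
  · exact add_zero (hd t)
  · exact zero_add (tl t)

theorem hd_inR {n : ℕ} (t : Idx n → A) : hd (inR n t) = 0 := rfl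

theorem tl_inR {n : ℕ} (t : Idx n → A) : tl (inR n t) = t := rfl

theorem hd_inL {n : ℕ} (t : Idx n → A) : hd (inL n t) = t := rfl

theorem tl_inL {n : ℕ} (t : Idx n → A) : tl (inL n t) = 0 := rfl

/-- The duality `E^(2^n) ≃ Hom(A^(2^n), E)`. -/
noncomputable def th : ∀ (n : ℕ), (Idx n → E) → ((Idx n → A) →ₗ[A] E)
  | 0, z => (LinearMap.proj () : (Unit → A) →ₗ[A] A).smulRight (z ())
  | n + 1, z => th n (hd z) ∘ₗ tlL n + ((-1 : A) ^ (n + 1)) • th n (tl z) ∘ₗ hdL n

theorem th_zero_apply (z : Idx 0 → E) (t : Idx 0 → A) : th 0 z t = t () • z () := rfl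

theorem th_succ_apply (n : ℕ) (z : Idx (n + 1) → E) (t : Idx (n + 1) → A) :
    th (n + 1) z t = th n (hd z) (tl t) + ((-1 : A) ^ (n + 1)) • th n (tl z) (hd t) := rfl

theorem th_add : ∀ (n : ℕ) (z z' : Idx n → E) (t : Idx n → A), th n (z + z') t = th n z t + th n z' t
  | 0, z, z', t => by
    rw [th_zero_apply, th_zero_apply, th_zero_apply, Pi.add_apply, smul_add]
  | n + 1, z, z', t => by
    rw [th_succ_apply, th_succ_apply, th_succ_apply, hd_add, tl_add, th_add, th_add, smul_add]
    abel

theorem th_smul : ∀ (n : ℕ) (a : A) (z : Idx n → E) (t : Idx n → A), th n (a • z) t = a • th n z t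
  | 0, a, z, t => by
    rw [th_zero_apply, th_zero_apply, Pi.smul_apply, smul_comm]
  | n + 1, a, z, t => by
    rw [th_succ_apply, th_succ_apply, hd_smul, tl_smul, th_smul, th_smul, smul_add, smul_comm]

theorem th_neg (n : ℕ) (z : Idx n → E) (t : Idx n → A) : th n (-z) t = - th n z t := by
  have h := th_smul n (-1 : A) z t
  rw [neg_one_smul, neg_one_smul] at h
  exact h

theorem th_D : ∀ (n : ℕ) (f : Fin n → A) (z : Idx n → E) (t : Idx n → A),
    th n (D f z) t = ((-1 : A) ^ n) • th n z (D f t)
  | 0, f, z, t => by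
    rw [D_zero_apply, D_zero_apply, th_zero_apply, map_zero, smul_zero]
    exact smul_zero _
  | n + 1, f, z, t => by
    rw [th_succ_apply, th_succ_apply, hd_D, tl_D, hd_D, tl_D, th_neg, th_add, th_smul, th_D, th_D, map_add, map_neg,
      map_smul]
    have h1 : ((-1 : A) ^ (n + 1)) * ((-1 : A) ^ n) = -1 := by
      rw [pow_succ, mul_assoc, mul_comm, mul_assoc, ← mul_pow]
      simp
    have h2 : ((-1 : A) ^ (n + 1)) * ((-1 : A) ^ (n + 1)) = 1 := by
      rw [← mul_pow]
      simp
    simp only [smul_add, smul_smul, smul_neg]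
    rw [h1, h2, neg_one_smul, one_smul]
    have h3 : (-1 : A) ^ (n + 1) = -(-1 : A) ^ n := by rw [pow_succ, mul_neg_one]
    rw [h3, neg_smul]
    abel

theorem th_inj0 : ∀ (n : ℕ) (z : Idx n → E) (a : A), th n z (inj0 a) = a • z (full n)
  | 0, z, a => rfl
  | n + 1, z, a => by
    rw [th_succ_apply, hd_inj0, tl_inj0, map_zero, smul_zero, add_zero, th_inj0]
    rfl

theorem th_injective : ∀ (n : ℕ) (z : Idx n → E), (∀ t : Idx n → A, th n z t = 0) → z = 0
  | 0, z, h => by
    funext s
    have h1 := h (fun _ => 1)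
    rw [th_zero_apply, one_smul] at h1
    exact h1
  | n + 1, z, h => by
    apply pr_ext
    · apply th_injective n
      intro t
      have h1 := h (inR n t)
      rwa [th_succ_apply, hd_inR, tl_inR, map_zero, smul_zero, add_zero] at h1
    · apply th_injective n
      intro t
      have h1 := h (inL n t)
      rw [th_succ_apply, hd_inL, tl_inL, map_zero, zero_add] at h1
      have h4 := congrArg (fun e => ((-1 : A) ^ (n + 1)) • e) h1
      simp only [smul_smul, smul_zero] at h4
      have h5 : ((-1 : A) ^ (n + 1)) * ((-1 : A) ^ (n + 1)) = 1 := by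
        rw [← mul_pow]
        simp
      rwa [h5, one_smul] at h4

theorem th_surjective : ∀ (n : ℕ) (φ : (Idx n → A) →ₗ[A] E), ∃ z : Idx n → E, th n z = φ
  | 0, φ => by
    refine ⟨fun _ => φ (fun _ => 1), ?_⟩
    ext t
    rw [th_zero_apply, ← map_smul]
    congr 1
    funext s
    exact mul_one _
  | n + 1, φ => by
    obtain ⟨z1, hz1⟩ := th_surjective n (φ ∘ₗ inR n)
    obtain ⟨z2, hz2⟩ := th_surjective n (((-1 : A) ^ (n + 1)) • φ ∘ₗ inL n)
    refine ⟨pr z1 z2, ?_⟩
    ext t
    rw [th_succ_apply, hd_pr, tl_pr, hz1, hz2]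
    have h5 : ((-1 : A) ^ (n + 1)) * ((-1 : A) ^ (n + 1)) = 1 := by
      rw [← mul_pow]
      simp
    rw [LinearMap.smul_apply, smul_smul, h5, one_smul, LinearMap.comp_apply, LinearMap.comp_apply, ← map_add]
    congr 1
    exact (add_comm _ _).trans (inL_add_inR t)

end Groth.Agent.Dual.H377.InjExact

namespace Groth.Agent.Dual.H377.InjExact

variable {A : Type u} [CommRing A] {E : Type u} [AddCommGroup E] [Module A E]

/-- Exactness on an injective module, total form. -/
theorem exists_D_of_injective [Module.Injective A E] {n : ℕ} (f : Fin n → A)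
    (h : ∀ z : Idx n → A, D f z = 0 → ∃ (w : Idx n → A) (a : A), z = D f w + inj0 a)
    (z : Idx n → E) (hz : D f z = 0) (hz' : z (full n) = 0) : ∃ w : Idx n → E, D f w = z := by
  let Dn : (Idx n → A) →ₗ[A] (Idx n → A) := D f
  have hker : LinearMap.ker Dn ≤ LinearMap.ker (th n z) := by
    intro t ht
    obtain ⟨w, a, rfl⟩ := h t ht
    rw [LinearMap.mem_ker, map_add, th_inj0, hz', smul_zero, add_zero]
    have h1 := th_D n f z w
    rw [hz] at h1
    have h2 : th n (0 : Idx n → E) w = 0 := by
      have := th_smul n (0 : A) z w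
      rwa [zero_smul, zero_smul] at this
    rw [h2] at h1
    have h4 := congrArg (fun e => ((-1 : A) ^ n) • e) h1
    simp only [smul_smul, smul_zero] at h4
    have h5 : ((-1 : A) ^ n) * ((-1 : A) ^ n) = 1 := by
      rw [← mul_pow]
      simp
    rw [h5, one_smul] at h4
    exact h4.symm
  obtain ⟨ψ, hψ⟩ := Module.Injective.out (R := A) (Q := E)
    ((LinearMap.ker Dn).liftQ Dn le_rfl) (by
      rw [← LinearMap.ker_eq_bot]
      exact Submodule.ker_liftQ_eq_bot _ _ _ le_rfl) ((LinearMap.ker Dn).liftQ (th n z) hker)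
  obtain ⟨w, hw⟩ := th_surjective n ψ
  have key : ∀ t : Idx n → A, th n w (D f t) = th n z t := by
    intro t
    have h1 := hψ (Submodule.Quotient.mk t)
    rw [Submodule.liftQ_apply, Submodule.liftQ_apply] at h1
    rw [hw]
    exact h1
  refine ⟨((-1 : A) ^ n) • w, ?_⟩
  rw [← sub_eq_zero]
  apply th_injective (A := A) n
  intro t
  rw [sub_eq_add_neg, th_add, th_neg, th_D, th_smul, smul_smul]
  have h5 : ((-1 : A) ^ n) * ((-1 : A) ^ n) = 1 := by
    rw [← mul_pow]
    simp
  rw [h5, one_smul, key, add_neg_cancel]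

/-- Koszul cycles in terms of alternating maps (no condition in degree `0`). -/
def Cy {A : Type u} [CommRing A] {E : Type v} [AddCommGroup E] [Module A E] {n : ℕ} (f : Fin n → A) :
    ∀ {k : ℕ}, Alt A n k E → Prop
  | 0, _ => True
  | _ + 1, z => z.curryLeft f = 0

theorem D_toI_of_cy {n k : ℕ} (f : Fin n → A) (z : Alt A n k E) (hz : Cy f z) : D f (toI n k z) = 0 := by
  cases k with
  | zero => exact D_toI_zero n f z
  | succ k =>
    rw [D_toI]
    have : z.curryLeft f = 0 := hz
    rw [this, toI_zero]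

/-- Exactness on an injective module. -/
theorem exists_curryLeft_of_injective [Module.Injective A E] {n : ℕ} (f : Fin n → A)
    (hex : ∀ (k : ℕ) (z : Alt A n (k + 1) A), z.curryLeft f = 0 → ∃ w : Alt A n (k + 2) A, w.curryLeft f = z)
    {k : ℕ} (hk : k < n) (z : Alt A n k E) (hz : Cy f z) : ∃ w : Alt A n (k + 1) E, w.curryLeft f = z := by
  obtain ⟨w, hw⟩ := exists_D_of_injective f (idx_of_alt f hex) (toI n k z) (D_toI_of_cy f z hz)
    (toI_apply_ne n k z (full n) (by rw [deg_full]; omega))
  obtain ⟨w', hw'⟩ := exists_toI (A := A) n (k + 1) (comp (k + 1) w) (fun s hs => comp_apply_ne _ _ _ hs)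
  refine ⟨w', toI_inj n k ?_⟩
  rw [← D_toI, hw', D_comp_succ, hw, comp_of k _ (fun s hs => toI_apply_ne _ _ _ _ hs)]

end Groth.Agent.Dual.H377.InjExact
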