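import Groth.Agent.Dual.H377.RHomInj
import Groth.Agent.Dual.H377.ExtInst
import Groth.Agent.Dual.H377.AdjGlue
import Groth.Agent.Dual.H376.Core

/-!
# `R Hom(O_X, O_Y) = ∧^r N[-r]` for a Koszul-regular closed immersion
-/

set_option autoImplicit false

universe u

open CategoryTheory CategoryTheory.Limits AlgebraicGeometry

attribute [local instance] HasDerivedCategory.standard

namespace Groth.Agent.Dual.H377.Main

open Groth.Agent.Dual.H377.RHomInj Groth.Agent.Dual.H377.ExtInst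

variable {X Y : Scheme.{u}} (i : X ⟶ Y)

/-- The cohomology sheaves of `R Hom(O_X, O_Y)` on `D^+`. -/
theorem hd_rhomPlus (hi : Dual3.IsKoszulRegularImmersion i) [IsClosedImmersion i] (r : ℕ)
    (hC : FlatMod.IsFinLocFreeOfRank r (Omega.conormal i)) [DCoh.HasSheafHom (Omega.conormal i)] (L : X.Modules)
    (hL : ExtPow.IsExtPow r ((DCoh.sheafHom (Omega.conormal i)).obj (Coh.structureModule X)) L)
    [Dual3.HasHomO i] [EnoughInjectives Y.Modules] (O : DerivedCategory.Plus Y.Modules)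
    (hO : Nonempty (O.obj ≅ DCoh.inD Y (Coh.structureModule Y))) :
    (∀ j : ℤ, j ≠ (r : ℤ) → IsZero (DCoh.HD ((Dual3.RHomOPlus i).obj O).obj j)) ∧
      Nonempty (DCoh.HD ((Dual3.RHomOPlus i).obj O).obj (r : ℤ) ≅ L) := by
  obtain ⟨e⟩ := hO
  have hR : HasInjectiveResolutions Y.Modules := inferInstance
  obtain ⟨R⟩ := (HasInjectiveResolutions.out (Coh.structureModule Y)).out
  obtain ⟨h1, ⟨h2⟩⟩ := Groth.Agent.Dual.H376.Core.core (D := extData i r R) hi hC L hL
  exact ⟨fun j hj => (h1 j hj).of_iso (hdIso i R O e j), ⟨hdIso i R O e r ≪≫ h2⟩⟩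

end Groth.Agent.Dual.H377.Main
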