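import Groth.Agent.Dual.H338.PushAdj
import Mathlib.CategoryTheory.Abelian.Injective.Ext

/-!
# `R Hom(O_X, -)` computed on an injective resolution
-/

set_option autoImplicit false

universe u

open CategoryTheory CategoryTheory.Limits AlgebraicGeometry

attribute [local instance] HasDerivedCategory.standard

namespace Groth.Agent.Dual.H377.RHomInj

open Groth.Agent.Dcoh.DerHo Groth.Agent.Dcoh.DerAdj Groth.Agent.Dcoh.DerComp
  Groth.Agent.Dcoh.DerSch Groth.Agent.Dual.H338.PushAdj

variable {X Y : Scheme.{u}} (i : X ⟶ Y) [Dual3.HasHomO i]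

/-- `homO` on complexes. -/
noncomputable abbrev homCx : CochainComplex Y.Modules ℤ ⥤ CochainComplex X.Modules ℤ :=
  (Dual3.homO i).mapHomologicalComplex (ComplexShape.up ℤ)

/-- `R Hom(O_X, -)` is computed by `Hom(O_X, -)` on K-injective complexes. -/
noncomputable def rhomIso (I : CochainComplex Y.Modules ℤ) (hI : I.IsKInjective) :
    (RHomO i).obj (DerivedCategory.Q.obj I) ≅ DerivedCategory.Q.obj ((homCx i).obj I) :=
  haveI := isIso_unitQ_app (Dual3.homO i) (RHomO i) (RHomOUnit i) I
    (isIso_unit_app' (hasKInj Y) (RHomO i) (RHomOUnit i) I hI)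
  (asIso ((unitQ (Dual3.homO i) (RHomO i) (RHomOUnit i)).app I)).symm

/-- A resolution computes the object in degree zero. -/
noncomputable def qRes {M : Y.Modules} (R : InjectiveResolution M) :
    DCoh.inD Y M ≅ DerivedCategory.Q.obj R.cochainComplex :=
  (DerivedCategory.singleFunctorIsoCompQ Y.Modules 0).app M ≪≫ asIso (DerivedCategory.Q.map R.ι')

/-- `R Hom(O_X, M)` for a module `M` with injective resolution `R`. -/
noncomputable def rhomRes {M : Y.Modules} (R : InjectiveResolution M) (K : DCoh.D Y) (e : K ≅ DCoh.inD Y M) :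
    (RHomO i).obj K ≅ DerivedCategory.Q.obj ((homCx i).obj R.cochainComplex) :=
  (RHomO i).mapIso (e ≪≫ qRes R) ≪≫ rhomIso i R.cochainComplex inferInstance

/-- The cohomology sheaves of `R Hom(O_X, M)`. -/
noncomputable def hdIso [EnoughInjectives Y.Modules] {M : Y.Modules} (R : InjectiveResolution M)
    (O : DerivedCategory.Plus Y.Modules) (e : O.obj ≅ DCoh.inD Y M) (j : ℤ) :
    DCoh.HD ((Dual3.RHomOPlus i).obj O).obj j ≅ ((homCx i).obj R.cochainComplex).homology j :=
  (DerivedCategory.homologyFunctor X.Modules j).mapIso ((rhomPlusIso i).app O ≪≫ rhomRes i R O.obj e) ≪≫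
    (DerivedCategory.homologyFunctorFactors X.Modules j).app _

end Groth.Agent.Dual.H377.RHomInj
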