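import Groth.Agent.Dual.H377.InjExact
import Groth.Agent.Sga67.KosZig

/-!
# Zigzags in the double complex `Alt^k(A^n, J_q)` for a coresolution `J`

`J 0 → J 1 → J 2 → …` is an exact complex of `A`-modules (with `J 0 → J 1` injective).  For
`S : Alt A n K (J (Q + 1))` the relation `Zg d f S m k q a` (`a : Alt A n k (J q)`, `k + m = K`, `q + m = Q`) says that `S` and
`a` are connected by a zigzag `d a = ι b_1, d b_1 = ι b_2, …, d b_m = S`.
-/

set_option autoImplicit false
set_option linter.unusedVariables false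

universe u v w

open Groth.Agent.Sga67.KosAlt Groth.Agent.Sga67.KoszulTot Groth.Agent.Dual.H377.AltIdx Groth.Agent.Dual.H377.InjExact

namespace Groth.Agent.Dual.H377.ZigE

section Zig

variable {A : Type u} [CommRing A] {n : ℕ} {J : ℕ → Type u} [∀ q, AddCommGroup (J q)] [∀ q, Module A (J q)]
  (d : ∀ q, J q →ₗ[A] J (q + 1)) (f : Fin n → A)

/-- `S` and `a` are connected by a zigzag of length `m`. -/
inductive Zg {K Q : ℕ} (S : Alt A n K (J (Q + 1))) : ℕ → ∀ (k q : ℕ), Alt A n k (J q) → Prop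
  | base (a : Alt A n K (J Q)) (h : (d Q).compAlternatingMap a = S) : Zg S 0 K Q a
  | step {m k q : ℕ} (a : Alt A n k (J q)) (b : Alt A n (k + 1) (J (q + 1)))
      (h : b.curryLeft f = (d q).compAlternatingMap a) (hb : Zg S m (k + 1) (q + 1) b) : Zg S (m + 1) k q a

variable {d f}

theorem comp_curryLeft {k q : ℕ} (z : Alt A n (k + 1) (J q)) :
    (d q).compAlternatingMap (z.curryLeft f) = ((d q).compAlternatingMap z).curryLeft f :=
  (AlternatingMap.curryLeft_compAlternatingMap _ _ _).symm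

theorem comp_sub' {k q : ℕ} (z z' : Alt A n k (J q)) :
    (d q).compAlternatingMap (z - z') = (d q).compAlternatingMap z - (d q).compAlternatingMap z' := by
  ext v
  simp

theorem comp_add' {k q : ℕ} (z z' : Alt A n k (J q)) :
    (d q).compAlternatingMap (z + z') = (d q).compAlternatingMap z + (d q).compAlternatingMap z' := by
  ext v
  simp

theorem comp_smul' {k q : ℕ} (c : A) (z : Alt A n k (J q)) :
    (d q).compAlternatingMap (c • z) = c • (d q).compAlternatingMap z := by
  ext v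
  simp

theorem comp_zero' {k q : ℕ} : (d q).compAlternatingMap (0 : Alt A n k (J q)) = 0 := by
  ext v
  simp

theorem curry_sub {k : ℕ} {E : Type v} [AddCommGroup E] [Module A E] (z z' : Alt A n (k + 1) E) (f : Fin n → A) :
    (z - z').curryLeft f = z.curryLeft f - z'.curryLeft f := by
  ext v
  simp

theorem curry_add {k : ℕ} {E : Type v} [AddCommGroup E] [Module A E] (z z' : Alt A n (k + 1) E) (f : Fin n → A) :
    (z + z').curryLeft f = z.curryLeft f + z'.curryLeft f := by
  ext v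
  simp

theorem curry_smul {k : ℕ} {E : Type v} [AddCommGroup E] [Module A E] (c : A) (z : Alt A n (k + 1) E)
    (f : Fin n → A) : (c • z).curryLeft f = c • z.curryLeft f := by
  ext v
  simp

theorem curry_zero {k : ℕ} {E : Type v} [AddCommGroup E] [Module A E] (f : Fin n → A) :
    (0 : Alt A n (k + 1) E).curryLeft f = 0 := by
  ext v
  simp

theorem curry_curry {k : ℕ} {E : Type v} [AddCommGroup E] [Module A E] (z : Alt A n (k + 2) E) (f : Fin n → A) :
    (z.curryLeft f).curryLeft f = 0 := AlternatingMap.curryLeft_same _ _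

theorem comp_comp_eq_zero (hdd : ∀ q x, d (q + 1) (d q x) = 0) {k q : ℕ} (z : Alt A n k (J q)) :
    (d (q + 1)).compAlternatingMap ((d q).compAlternatingMap z) = 0 := by
  ext v
  simp [hdd]

theorem exists_of_comp (hex : ∀ q x, d (q + 1) x = 0 → ∃ y, d q y = x) {k q : ℕ} (z : Alt A n k (J (q + 1)))
    (hz : (d (q + 1)).compAlternatingMap z = 0) : ∃ w : Alt A n k (J q), (d q).compAlternatingMap w = z :=
  exists_comp_eq_of_exact (d q) (d (q + 1)) (hex q) z hz

theorem eq_zero_of_comp (hex0 : ∀ x, d 0 x = 0 → x = 0) {k : ℕ} (z : Alt A n k (J 0))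
    (hz : (d 0).compAlternatingMap z = 0) : z = 0 := by
  ext v
  exact hex0 _ (congr($hz v))

variable {K Q : ℕ} {S S' : Alt A n K (J (Q + 1))}

theorem Zg.comp_eq_zero (hdd : ∀ q x, d (q + 1) (d q x) = 0) {m k q : ℕ} {a : Alt A n k (J q)}
    (h : Zg d f S m k q a) : (d (Q + 1)).compAlternatingMap S = 0 := by
  induction h with
  | base a h => rw [← h]; exact comp_comp_eq_zero hdd _
  | step a b h hb ih => exact ih

theorem Zg.d_iota {K Q : ℕ} {S : Alt A n K (J (Q + 1))} (hS : Cy f S) {m k q : ℕ} {a : Alt A n (k + 1) (J q)}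
    (h : Zg d f S m (k + 1) q a) : (d q).compAlternatingMap (a.curryLeft f) = 0 := by
  cases h with
  | base a h =>
    rw [comp_curryLeft, h]
    exact hS
  | step a b h hb =>
    rw [comp_curryLeft, ← h, curry_curry]

theorem Zg.exists_down (hex : ∀ q x, d (q + 1) x = 0 → ∃ y, d q y = x) (hS : Cy f S) {m k q : ℕ}
    {b : Alt A n (k + 1) (J (q + 1))} (h : Zg d f S m (k + 1) (q + 1) b) :
    ∃ a : Alt A n k (J q), Zg d f S (m + 1) k q a := by
  obtain ⟨a, ha⟩ := exists_of_comp hex _ (h.d_iota hS)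
  exact ⟨a, Zg.step a b ha.symm h⟩

theorem exists_zg (hex : ∀ q x, d (q + 1) x = 0 → ∃ y, d q y = x) (hS : Cy f S)
    (hdS : (d (Q + 1)).compAlternatingMap S = 0) :
    ∀ m k q : ℕ, k + m = K → q + m = Q → ∃ a : Alt A n k (J q), Zg d f S m k q a := by
  intro m
  induction m with
  | zero =>
    intro k q hk hq
    have hk' : k = K := hk
    have hq' : q = Q := hq
    subst hk' hq'
    obtain ⟨a, ha⟩ := exists_of_comp hex _ hdS
    exact ⟨a, Zg.base a ha⟩
  | succ m ih =>
    intro k q hk hq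
    obtain ⟨b, hb⟩ := ih (k + 1) (q + 1) (by omega) (by omega)
    exact hb.exists_down hex hS

theorem Zg.index {m k q : ℕ} {a : Alt A n k (J q)} (h : Zg d f S m k q a) : k + m = K ∧ q + m = Q := by
  induction h with
  | base a h => exact ⟨rfl, rfl⟩
  | step a b h hb ih => exact ⟨by omega, by omega⟩

theorem Zg.add {m k q : ℕ} {a a' : Alt A n k (J q)} (h : Zg d f S m k q a) (h' : Zg d f S' m k q a') :
    Zg d f (S + S') m k q (a + a') := by
  induction h with
  | base a h =>
    cases h' with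
    | base a' h' => exact Zg.base _ (by rw [comp_add', h, h'])
  | step a b h hb ih =>
    cases h' with
    | step a' b' h' hb' => exact Zg.step _ (b + b') (by rw [comp_add', curry_add, h, h']) (ih hb')

theorem Zg.smul (c : A) {m k q : ℕ} {a : Alt A n k (J q)} (h : Zg d f S m k q a) :
    Zg d f (c • S) m k q (c • a) := by
  induction h with
  | base a h => exact Zg.base _ (by rw [comp_smul', h])
  | step a b h hb ih => exact Zg.step _ (c • b) (by rw [comp_smul', curry_smul, h]) ih

theorem Zg.sub {m k q : ℕ} {a a' : Alt A n k (J q)} (h : Zg d f S m k q a) (h' : Zg d f S' m k q a') :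
    Zg d f (S - S') m k q (a - a') := by
  have h1 := h.add (h'.smul (-1))
  rwa [neg_one_smul, neg_one_smul, ← sub_eq_add_neg, ← sub_eq_add_neg] at h1

/-- A zigzag starting at zero. -/
theorem Zg.zero (hdd : ∀ q x, d (q + 1) (d q x) = 0) (hex : ∀ q x, d (q + 1) x = 0 → ∃ y, d q y = x)
    (hS : S = 0) {m k q : ℕ} {a : Alt A n k (J q)} (h : Zg d f S m k q a) :
    ∃ x : Alt A n (k + 1) (J q), (d q).compAlternatingMap (a - x.curryLeft f) = 0 := by
  induction h with
  | base a h =>
    refine ⟨0, ?_⟩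
    rw [curry_zero, sub_zero, h, hS]
  | step a b h hb ih =>
    obtain ⟨y, hy⟩ := ih
    obtain ⟨x, hx⟩ := exists_of_comp hex _ hy
    refine ⟨x, ?_⟩
    rw [comp_sub', comp_curryLeft, hx, curry_sub, curry_curry, sub_zero, h, sub_self]

/-- Going up along a zigzag. -/
theorem Zg.up (hdd : ∀ q x, d (q + 1) (d q x) = 0)
    (hK1 : ∀ q k, k < n → ∀ z : Alt A n k (J (q + 1)), Cy f z → ∃ w : Alt A n (k + 1) (J (q + 1)), w.curryLeft f = z)
    {m k q : ℕ} {a : Alt A n k (J q)} (h : Zg d f S m k q a) (hq : 0 < q) (hk : k + m = n)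
    (c : Alt A n k (J q)) (hc : (d q).compAlternatingMap c = 0) (hc' : Cy f (a - c)) :
    ∃ T : Alt A n K (J Q), Cy f T ∧ (d Q).compAlternatingMap T = S := by
  induction h with
  | base a h => exact ⟨a - c, hc', by rw [comp_sub', h, hc, sub_zero]⟩
  | step a b h hb ih =>
    rename_i m k q
    obtain ⟨p, rfl⟩ := Nat.exists_eq_succ_of_ne_zero hq.ne'
    obtain ⟨x, hx⟩ := hK1 p k (by omega) (a - c) hc'
    refine ih (by omega) (by omega) ((d (p + 1)).compAlternatingMap x) (comp_comp_eq_zero hdd _) ?_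
    change (b - (d (p + 1)).compAlternatingMap x).curryLeft f = 0
    rw [curry_sub, h, ← comp_curryLeft, hx, comp_sub', hc, sub_zero, sub_self]

/-- Zigzags with a given end. -/
theorem exists_zg_up (hdd : ∀ q x, d (q + 1) (d q x) = 0)
    (hK1 : ∀ q k, k < n → ∀ z : Alt A n k (J (q + 1)), Cy f z → ∃ w : Alt A n (k + 1) (J (q + 1)), w.curryLeft f = z)
    {Q : ℕ} : ∀ (m k q : ℕ) (a : Alt A n k (J q)), k + m = n → q + m = Q → Cy f ((d q).compAlternatingMap a) →
      ∃ S : Alt A n n (J (Q + 1)), Cy f S ∧ Zg d f S m k q a := by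
  intro m
  induction m with
  | zero =>
    intro k q a hk hq ha
    have hk' : k = n := hk
    have hq' : q = Q := hq
    subst hq'
    have key : ∀ (k : ℕ) (hk : k = n) (a : Alt A n k (J q)), Cy f ((d q).compAlternatingMap a) →
        ∃ S : Alt A n n (J (q + 1)), Cy f S ∧ Zg d f S 0 k q a := by
      intro k hk
      cases hk
      intro a ha
      exact ⟨_, ha, Zg.base a rfl⟩
    exact key k hk' a ha
  | succ m ih =>
    intro k q a hk hq ha
    obtain ⟨b, hb⟩ := hK1 q k (by omega) _ ha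
    obtain ⟨S, hS, hS'⟩ := ih (k + 1) (q + 1) b (by omega) (by omega) (by
      change ((d (q + 1)).compAlternatingMap b).curryLeft f = 0
      rw [← comp_curryLeft, hb]
      exact comp_comp_eq_zero hdd _)
    exact ⟨S, hS, Zg.step a b hb hS'⟩

theorem Zg.compLinearMap {n' : ℕ} (α : (Fin n' → A) →ₗ[A] (Fin n → A)) (f' : Fin n' → A) (hf : α f' = f)
    {m k q : ℕ} {a : Alt A n k (J q)} (h : Zg d f S m k q a) :
    Zg d f' (S.compLinearMap α) m k q (a.compLinearMap α) := by
  induction h with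
  | base a h => exact Zg.base _ (by rw [← h]; rfl)
  | step a b h hb ih =>
    refine Zg.step _ (b.compLinearMap α) ?_ ih
    rw [AlternatingMap.curryLeft_compLinearMap, hf, h]
    rfl

end Zig

section Bc

variable {A : Type u} [CommRing A] {A' : Type u} [CommRing A'] {n : ℕ}
  {J : ℕ → Type u} [∀ q, AddCommGroup (J q)] [∀ q, Module A (J q)]
  {J' : ℕ → Type u} [∀ q, AddCommGroup (J' q)] [∀ q, Module A' (J' q)]
  {d : ∀ q, J q →ₗ[A] J (q + 1)} {d' : ∀ q, J' q →ₗ[A'] J' (q + 1)} {f : Fin n → A}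

theorem Zg.map (φ : A →+* A') (ρ : ∀ q, J q →+ J' q) (hρ : ∀ q (a : A) (e : J q), ρ q (a • e) = φ a • ρ q e)
    (hd : ∀ q e, d' q (ρ q e) = ρ (q + 1) (d q e)) {K Q : ℕ} {S : Alt A n K (J (Q + 1))} {m k q : ℕ}
    {a : Alt A n k (J q)} (h : Zg d f S m k q a) :
    Zg d' (fun j => φ (f j)) (Groth.Agent.Sga67.KosAlt.bc A' (ρ (Q + 1)) S) m k q (Groth.Agent.Sga67.KosAlt.bc A' (ρ q) a) := by
  induction h with
  | base a h =>
    refine Zg.base _ ?_
    rw [bc_comp (ρ Q) (ρ (Q + 1)) (d Q) (d' Q) (hd Q), h]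
  | step a b h hb ih =>
    rename_i m k q
    refine Zg.step _ (Groth.Agent.Sga67.KosAlt.bc A' (ρ (q + 1)) b) ?_ ih
    rw [bc_curryLeft φ (ρ (q + 1)) (hρ (q + 1)), h, bc_comp (ρ q) (ρ (q + 1)) (d q) (d' q) (hd q)]

end Bc

end Groth.Agent.Dual.H377.ZigE
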